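import Mathlib
import Cfsg.Agent.Lib.Helper18.AutPSL.TvAut2

set_option autoImplicit false

/-!
Hilbert's theorem 90 for `GL_n` and a cyclic group of field automorphisms.
-/

namespace Cfsg.Agent.Lib.Helper18.AutPSL

open Matrix MatrixGroups

variable {ι : Type*} [Fintype ι] [DecidableEq ι] {F : Type*} [Field F]

/-- a ring automorphism acting on matrices -/
def mp (σ : F ≃+* F) : Matrix ι ι F →+* Matrix ι ι F := (σ : F →+* F).mapMatrix

theorem mp_apply (σ : F ≃+* F) (M : Matrix ι ι F) (i j : ι) : mp σ M i j = σ (M i j) := rfl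

theorem mp_eq_map (σ : F ≃+* F) (M : Matrix ι ι F) : mp σ M = M.map σ := rfl

theorem pow_succ_apply (σ : F ≃+* F) (k : ℕ) (x : F) : (σ ^ (k + 1)) x = σ ((σ ^ k) x) := by
  rw [pow_succ']
  rfl

theorem mp_pow_succ (σ : F ≃+* F) (k : ℕ) (M : Matrix ι ι F) :
    mp (σ ^ (k + 1)) M = mp σ (mp (σ ^ k) M) := by
  ext i j
  rw [mp_apply, mp_apply, mp_apply, pow_succ_apply]

theorem mp_one (M : Matrix ι ι F) : mp (1 : F ≃+* F) M = M := by
  ext i j
  rfl

/-- partial norms `g σ(g) ⋯ σ^{k-1}(g)` -/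
def nrm (σ : F ≃+* F) (g : Matrix ι ι F) : ℕ → Matrix ι ι F
  | 0 => 1
  | k + 1 => g * mp σ (nrm σ g k)

theorem nrm_zero (σ : F ≃+* F) (g : Matrix ι ι F) : nrm σ g 0 = 1 := rfl
theorem nrm_succ (σ : F ≃+* F) (g : Matrix ι ι F) (k : ℕ) :
    nrm σ g (k + 1) = g * mp σ (nrm σ g k) := rfl

/-- the averaging operator on matrices -/
def avg (σ : F ≃+* F) (g : Matrix ι ι F) (r : ℕ) (c : Matrix ι ι F) : Matrix ι ι F :=
  ∑ i ∈ Finset.range r, nrm σ g i * mp (σ ^ i) c

theorem mul_mp_avg (σ : F ≃+* F) (g : Matrix ι ι F) (r : ℕ) (hσ : σ ^ r = 1)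
    (hN : nrm σ g r = 1) (c : Matrix ι ι F) : g * mp σ (avg σ g r c) = avg σ g r c := by
  have h1 : g * mp σ (avg σ g r c) =
      ∑ i ∈ Finset.range r, nrm σ g (i + 1) * mp (σ ^ (i + 1)) c := by
    rw [avg, map_sum, Finset.mul_sum]
    apply Finset.sum_congr rfl
    intro i _
    rw [map_mul, nrm_succ, mp_pow_succ, Matrix.mul_assoc]
  have h2 := Finset.sum_range_succ' (fun i => nrm σ g i * mp (σ ^ i) c) r
  have h3 := Finset.sum_range_succ (fun i => nrm σ g i * mp (σ ^ i) c) r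
  rw [h3] at h2
  simp only [hσ, hN, pow_zero, nrm_zero] at h2
  rw [h1, avg]
  exact (add_right_cancel h2).symm

/-- the averaging operator on vectors -/
def avgV (σ : F ≃+* F) (g : Matrix ι ι F) (r : ℕ) (x : ι → F) : ι → F :=
  ∑ i ∈ Finset.range r, nrm σ g i *ᵥ (fun k => (σ ^ i) (x k))

theorem avg_of_cols (σ : F ≃+* F) (g : Matrix ι ι F) (r : ℕ) (x : ι → ι → F) :
    avg σ g r (Matrix.of (fun k j => x j k)) = Matrix.of (fun k j => avgV σ g r (x j) k) := by
  ext k j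
  simp only [avg, avgV, Matrix.of_apply, Matrix.sum_apply, Finset.sum_apply]
  apply Finset.sum_congr rfl
  intro i _
  rfl

theorem pow_injOn (σ : F ≃+* F) (r : ℕ) (hr : orderOf σ = r) :
    Function.Injective (fun i : Fin r => ((σ ^ (i : ℕ) : F ≃+* F) : F →* F)) := by
  intro i j hij
  have h1 : σ ^ (i : ℕ) = σ ^ (j : ℕ) := by
    ext x
    exact congrArg (fun f : F →* F => f x) hij
  have h2 := pow_injOn_Iio_orderOf (x := σ) (by rw [hr]; exact i.2) (by rw [hr]; exact j.2) h1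
  exact Fin.ext h2

/-- no nonzero linear form kills the image of the averaging operator -/
theorem eq_zero_of_dot_avgV (σ : F ≃+* F) (g : Matrix ι ι F) (r : ℕ) (hr0 : 0 < r)
    (hr : orderOf σ = r) (ψ : ι → F) (h : ∀ x, ψ ⬝ᵥ avgV σ g r x = 0) : ψ = 0 := by
  have hli := (linearIndependent_monoidHom F F).comp _ (pow_injOn σ r hr)
  rw [Fintype.linearIndependent_iff] at hli
  funext k₀
  have key := hli (fun i : Fin r => ψ ⬝ᵥ (nrm σ g i *ᵥ (fun k => (σ ^ (i : ℕ)) (ee k₀ k)))) (by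
    funext lam
    have h1 := h (lam • ee k₀)
    rw [avgV, dotProduct_sum, ← Fin.sum_univ_eq_sum_range
      (fun i => ψ ⬝ᵥ (nrm σ g i *ᵥ (fun k => (σ ^ i) ((lam • (ee k₀ : ι → F)) k))))] at h1
    rw [Finset.sum_apply, Pi.zero_apply, ← h1]
    apply Finset.sum_congr rfl
    intro i _
    have e : (fun k => (σ ^ (i : ℕ)) ((lam • (ee k₀ : ι → F)) k)) =
        (σ ^ (i : ℕ)) lam • (fun k => (σ ^ (i : ℕ)) ((ee k₀ : ι → F) k)) := by
      funext k
      simp
    rw [e, Matrix.mulVec_smul, dotProduct_smul, Pi.smul_apply, smul_eq_mul, smul_eq_mul, mul_comm]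
    rfl) ⟨0, hr0⟩
  simp only [pow_zero, nrm_zero, Matrix.one_mulVec] at key
  have e2 : (fun k => (1 : F ≃+* F) ((ee k₀ : ι → F) k)) = ee k₀ := rfl
  rw [e2, dotProduct_single_one] at key
  exact key

/-- a spanning set of `ι → F` contains an invertible matrix of columns -/
theorem exists_cols_of_forall (B : (ι → F) → (ι → F))
    (h : ∀ ψ : ι → F, (∀ x, ψ ⬝ᵥ B x = 0) → ψ = 0) :
    ∃ x : ι → ι → F, (Matrix.of (fun k j => B (x j) k)).det ≠ 0 := by
  have hspan : Submodule.span F (Set.range B) = ⊤ := by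
    by_contra hne
    obtain ⟨f, hf, hle⟩ := Submodule.exists_le_ker_of_lt_top _ (lt_top_iff_ne_top.2 hne)
    apply hf
    have hψ : (fun i => f (Pi.single i 1)) = (0 : ι → F) := by
      apply h
      intro x
      have h1 : f (B x) = 0 := hle (Submodule.subset_span ⟨x, rfl⟩)
      rw [← h1, LinearMap.pi_apply_eq_sum_univ f (B x)]
      simp only [dotProduct, smul_eq_mul]
      apply Finset.sum_congr rfl
      intro i _
      rw [mul_comm]
      congr 2
      funext j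
      simp [Pi.single_apply, eq_comm]
    ext i
    simpa using congrFun hψ i
  obtain ⟨f, hf1, hf2, hf3⟩ := Submodule.exists_fun_fin_finrank_span_eq F (Set.range B)
  have hcard : Module.finrank F (Submodule.span F (Set.range B)) = Fintype.card ι := by
    rw [hspan, finrank_top, Module.finrank_fintype_fun_eq_card]
  let e : ι ≃ Fin (Module.finrank F (Submodule.span F (Set.range B))) :=
    Fintype.equivFinOfCardEq hcard.symm
  choose y hy using hf1
  refine ⟨fun j => y (e j), ?_⟩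
  apply det_ne_zero_of_cols (fun j => B (y (e j)))
  intro ψ hψ
  apply h
  intro x
  have hx : B x ∈ Submodule.span F (Set.range f) := by
    rw [hf2]
    exact Submodule.subset_span ⟨x, rfl⟩
  have gen : ∀ v ∈ Submodule.span F (Set.range f), ψ ⬝ᵥ v = 0 := by
    intro v hv
    induction hv using Submodule.span_induction with
    | mem v hv =>
      obtain ⟨i, rfl⟩ := hv
      have := hψ (e.symm i)
      rwa [Equiv.apply_symm_apply, hy] at this
    | zero => simp
    | add u v _ _ hu hv => rw [dotProduct_add, hu, hv, add_zero]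
    | smul a v _ hv => rw [dotProduct_smul, hv, smul_zero]
  exact gen _ hx

/-- **Hilbert 90 for `GL_n`** -/
theorem hilbert90 (σ : F ≃+* F) (g : Matrix ι ι F) (r : ℕ) (hr0 : 0 < r) (hr : orderOf σ = r)
    (hN : nrm σ g r = 1) : ∃ b : Matrix ι ι F, b.det ≠ 0 ∧ g * mp σ b = b := by
  obtain ⟨x, hx⟩ := exists_cols_of_forall (avgV σ g r) (eq_zero_of_dot_avgV σ g r hr0 hr)
  refine ⟨avg σ g r (Matrix.of (fun k j => x j k)), ?_, ?_⟩
  · rw [avg_of_cols]
    exact hx
  · exact mul_mp_avg σ g r (by rw [← hr]; exact pow_orderOf_eq_one σ) hN _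

theorem nrm_succ' (σ : F ≃+* F) (g : Matrix ι ι F) (k : ℕ) :
    nrm σ g (k + 1) = nrm σ g k * mp (σ ^ k) g := by
  induction k with
  | zero => rw [nrm_succ, nrm_zero, map_one, pow_zero, mp_one, Matrix.mul_one, Matrix.one_mul]
  | succ k ih =>
    conv_lhs => rw [nrm_succ, ih, map_mul, ← Matrix.mul_assoc, ← nrm_succ, ← mp_pow_succ]

/-- partial norms of scalars -/
def nrmS (σ : F ≃+* F) (μ : F) : ℕ → F
  | 0 => 1
  | k + 1 => μ * σ (nrmS σ μ k)

theorem nrmS_zero (σ : F ≃+* F) (μ : F) : nrmS σ μ 0 = 1 := rfl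
theorem nrmS_succ (σ : F ≃+* F) (μ : F) (k : ℕ) : nrmS σ μ (k + 1) = μ * σ (nrmS σ μ k) := rfl

theorem nrmS_succ' (σ : F ≃+* F) (μ : F) (k : ℕ) :
    nrmS σ μ (k + 1) = nrmS σ μ k * (σ ^ k) μ := by
  induction k with
  | zero => rw [nrmS_succ, nrmS_zero, map_one, pow_zero, mul_one, one_mul]; rfl
  | succ k ih =>
    conv_lhs => rw [nrmS_succ, ih, map_mul, ← mul_assoc, ← nrmS_succ, ← pow_succ_apply]

theorem mp_smul (σ : F ≃+* F) (a : F) (M : Matrix ι ι F) : mp σ (a • M) = σ a • mp σ M := by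
  ext i j
  simp [mp_apply]

theorem nrm_smul (σ : F ≃+* F) (μ : F) (g : Matrix ι ι F) (k : ℕ) :
    nrm σ (μ • g) k = nrmS σ μ k • nrm σ g k := by
  induction k with
  | zero => rw [nrm_zero, nrm_zero, nrmS_zero, one_smul]
  | succ k ih =>
    rw [nrm_succ, ih, nrm_succ, nrmS_succ, mp_smul, Matrix.smul_mul, Matrix.mul_smul, smul_smul]

theorem nrm_one (σ : F ≃+* F) (k : ℕ) : nrm σ (1 : Matrix ι ι F) k = 1 := by
  induction k with
  | zero => rfl
  | succ k ih => rw [nrm_succ, ih, map_one, Matrix.one_mul]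

theorem nrmS_mul (σ : F ≃+* F) (a b : F) (k : ℕ) :
    nrmS σ (a * b) k = nrmS σ a k * nrmS σ b k := by
  induction k with
  | zero => simp [nrmS_zero]
  | succ k ih => rw [nrmS_succ, ih, nrmS_succ, nrmS_succ, map_mul]; ring

theorem nrmS_one (σ : F ≃+* F) (k : ℕ) : nrmS σ 1 k = 1 := by
  induction k with
  | zero => rfl
  | succ k ih => rw [nrmS_succ, ih, map_one, one_mul]

theorem nrmS_ne_zero (σ : F ≃+* F) {μ : F} (hμ : μ ≠ 0) (k : ℕ) : nrmS σ μ k ≠ 0 := by
  induction k with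
  | zero => exact one_ne_zero
  | succ k ih =>
    rw [nrmS_succ]
    exact mul_ne_zero hμ (by simpa using ih)

theorem sigma_nrmS (σ : F ≃+* F) {r : ℕ} (hσ : σ ^ r = 1) (μ : F) :
    σ (nrmS σ μ r) = nrmS σ μ r := by
  by_cases hμ : μ = 0
  · subst hμ
    cases r with
    | zero => simp [nrmS_zero]
    | succ r => simp [nrmS_succ]
  · have h1 := nrmS_succ σ μ r
    rw [nrmS_succ', hσ] at h1
    have h2 : nrmS σ μ r * μ = μ * σ (nrmS σ μ r) := h1
    rw [mul_comm] at h2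
    exact (mul_left_cancel₀ hμ h2).symm

/-- Hilbert 90 for scalars -/
theorem hilbert90_one (σ : F ≃+* F) (μ : F) (r : ℕ) (hr0 : 0 < r) (hr : orderOf σ = r)
    (hN : nrmS σ μ r = 1) : ∃ c : F, c ≠ 0 ∧ μ * σ c = c := by
  obtain ⟨b, hb, hb2⟩ := hilbert90 (ι := Unit) σ (μ • 1) r hr0 hr (by
    rw [nrm_smul, hN, nrm_one, one_smul])
  refine ⟨b () (), ?_, ?_⟩
  · rwa [Matrix.det_unique] at hb
  · have := congrFun (congrFun hb2 ()) ()
    rw [Matrix.smul_mul, Matrix.one_mul] at this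
    exact this

/-- the norm as an endomorphism of the unit group -/
def nrmU (σ : F ≃+* F) (r : ℕ) : Fˣ →* Fˣ where
  toFun μ := Units.mk0 (nrmS σ μ r) (nrmS_ne_zero σ μ.ne_zero r)
  map_one' := Units.ext (nrmS_one σ r)
  map_mul' a b := Units.ext (nrmS_mul σ a b r)

/-- `b ↦ b / σ b` -/
def quoU (σ : F ≃+* F) : Fˣ →* Fˣ where
  toFun b := b * (Units.map (σ : F →* F) b)⁻¹
  map_one' := by simp
  map_mul' a b := by
    rw [map_mul, mul_inv]
    exact mul_mul_mul_comm _ _ _ _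

theorem mem_ker_quoU (σ : F ≃+* F) (b : Fˣ) : b ∈ (quoU σ).ker ↔ σ b = b := by
  rw [MonoidHom.mem_ker]
  show b * (Units.map (σ : F →* F) b)⁻¹ = 1 ↔ _
  rw [mul_inv_eq_one, Units.ext_iff]
  constructor
  · intro h; exact h.symm
  · intro h; exact h.symm

theorem range_nrmU [Finite F] (σ : F ≃+* F) (r : ℕ) (hr0 : 0 < r) (hr : orderOf σ = r) :
    (nrmU σ r).range = (quoU σ).ker := by
  have hσ : σ ^ r = 1 := by rw [← hr]; exact pow_orderOf_eq_one σ
  have h1 : (nrmU σ r).range ≤ (quoU σ).ker := by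
    rintro _ ⟨μ, rfl⟩
    rw [mem_ker_quoU]
    exact sigma_nrmS σ hσ μ
  have h2 : (nrmU σ r).ker ≤ (quoU σ).range := by
    intro μ hμ
    have h3 : nrmS σ μ r = 1 := congrArg Units.val hμ
    obtain ⟨c, hc, hc2⟩ := hilbert90_one σ μ r hr0 hr h3
    refine ⟨Units.mk0 c hc, ?_⟩
    show Units.mk0 c hc * (Units.map (σ : F →* F) (Units.mk0 c hc))⁻¹ = μ
    rw [mul_inv_eq_iff_eq_mul]
    exact Units.ext hc2.symm
  apply Subgroup.eq_of_le_of_card_ge h1
  have e1 := Subgroup.card_mul_index (nrmU σ r).ker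
  have e2 := Subgroup.card_mul_index (quoU σ).ker
  rw [Subgroup.index_ker] at e1 e2
  have h4 := Subgroup.card_le_of_le h2
  have hpos : 0 < Nat.card (quoU σ).range := Nat.card_pos
  have h5 : Nat.card (quoU σ).ker * Nat.card (quoU σ).range ≤
      Nat.card (quoU σ).range * Nat.card (nrmU σ r).range := by
    rw [e2, ← e1]
    exact Nat.mul_le_mul_right _ h4
  rw [mul_comm] at h5
  exact Nat.le_of_mul_le_mul_left h5 hpos

/-- surjectivity of the norm of a finite field -/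
theorem nrmS_surj [Finite F] (σ : F ≃+* F) (r : ℕ) (hr0 : 0 < r) (hr : orderOf σ = r)
    (lam : F) (h0 : lam ≠ 0) (hfix : σ lam = lam) : ∃ μ : F, μ ≠ 0 ∧ nrmS σ μ r = lam := by
  have h1 : Units.mk0 lam h0 ∈ (nrmU σ r).range := by
    rw [range_nrmU σ r hr0 hr, mem_ker_quoU]
    exact hfix
  obtain ⟨μ, hμ⟩ := h1
  exact ⟨μ, μ.ne_zero, congrArg Units.val hμ⟩

end Cfsg.Agent.Lib.Helper18.AutPSL
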