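import Mathlib
import Cfsg.Prelude.Def_KGroupFacts
import Cfsg.Agent.Lib.Helper18.AutPSL.Rigid
import Cfsg.Agent.Lib.Helper18.AutPSL2.Abstract
import Cfsg.Agent.Lib.Helper6.SLCard

set_option autoImplicit false

/-!
The structure of `Out(PSL_n(q))`, `n ≥ 3`.
-/

namespace Cfsg.Agent.Lib.Helper18.AutPSL

open Matrix MatrixGroups Pointwise

/-- passing to the quotient by a normal subgroup contained in the kernel -/
theorem exists_out_hom' {A Γ Z : Type*} [Group A] [Finite A] [Group Γ] [Group Z] (e : Γ ≃* Z)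
    (I : Subgroup A) [I.Normal] (τ : A →* Γ) (hτ : Function.Surjective τ) (hI : I ≤ τ.ker)
    (d : ℕ) (hd : Nat.card τ.ker = d * Nat.card I)
    (hcyc : IsCyclic (Subgroup.map (QuotientGroup.mk' I) τ.ker)) :
    ∃ φ : A ⧸ I →* Z, Function.Surjective φ ∧ IsCyclic φ.ker ∧ Nat.card φ.ker = d := by
  have : Finite Γ := Finite.of_surjective τ hτ
  have : Finite Z := Finite.of_surjective e e.surjective
  have hf0 : 0 < Nat.card Z := Nat.card_pos
  let τ' : A →* Z := e.toMonoidHom.comp τ
  have hτ' : Function.Surjective τ' := e.surjective.comp hτ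
  have hker : τ'.ker = τ.ker := by
    ext x
    simp [τ', MonoidHom.mem_ker]
  let φ : A ⧸ I →* Z := QuotientGroup.lift I τ' (by
    intro x hx
    have := hI hx
    rw [← hker] at this
    exact this)
  have hφ : Function.Surjective φ := by
    intro y
    obtain ⟨x, rfl⟩ := hτ' y
    exact ⟨QuotientGroup.mk x, rfl⟩
  have hφker : φ.ker = Subgroup.map (QuotientGroup.mk' I) τ.ker := by
    ext x
    obtain ⟨a, rfl⟩ := QuotientGroup.mk_surjective x
    constructor
    · intro h
      refine ⟨a, ?_, rfl⟩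
      rw [← hker]
      exact h
    · rintro ⟨b, hb, e'⟩
      rw [← e']
      rw [← hker] at hb
      exact hb
  have hcard : Nat.card φ.ker = d := by
    have c1 : Nat.card (A ⧸ I) = Nat.card φ.ker * Nat.card Z := by
      rw [← Subgroup.card_mul_index φ.ker, Subgroup.index_ker, MonoidHom.range_eq_top.2 hφ,
        Nat.card_congr Subgroup.topEquiv.toEquiv]
    have c2 : Nat.card A = Nat.card τ.ker * Nat.card Z := by
      rw [← Subgroup.card_mul_index τ.ker, Subgroup.index_ker, MonoidHom.range_eq_top.2 hτ,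
        Nat.card_congr Subgroup.topEquiv.toEquiv, Nat.card_congr e.toEquiv]
    have c3 : Nat.card A = Nat.card (A ⧸ I) * Nat.card I :=
      Subgroup.card_eq_card_quotient_mul_card_subgroup I
    rw [c1, c2, hd] at c3
    have hI0 : 0 < Nat.card I := Nat.card_pos
    have : d * (Nat.card I * Nat.card Z) = Nat.card φ.ker * (Nat.card I * Nat.card Z) := by
      linarith [c3, mul_assoc d (Nat.card I) (Nat.card Z),
        mul_assoc (Nat.card φ.ker) (Nat.card Z) (Nat.card I), mul_comm (Nat.card Z) (Nat.card I)]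
    exact (Nat.eq_of_mul_eq_mul_right (Nat.mul_pos hI0 hf0) this).symm
  refine ⟨φ, hφ, ?_, hcard⟩
  rw [hφker]
  exact hcyc

variable {ι : Type*} [Fintype ι] [DecidableEq ι] {F : Type*} [Field F]

local notation "γ" => (gr : MulAut (ProjectiveSpecialLinearGroup ι F))

theorem zmod2_cases (z : Multiplicative (ZMod 2)) : z = 1 ∨ z = Multiplicative.ofAdd 1 := by
  revert z
  decide

/-- the homomorphism from the group of order two given by the graph automorphism -/
noncomputable def grHom : Multiplicative (ZMod 2) →* MulAut (ProjectiveSpecialLinearGroup ι F) where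
  toFun z := if z = 1 then 1 else γ
  map_one' := if_pos rfl
  map_mul' := by
    have h1 : (Multiplicative.ofAdd 1 : Multiplicative (ZMod 2)) ≠ 1 := by decide
    have h2 : (Multiplicative.ofAdd 1 : Multiplicative (ZMod 2)) * Multiplicative.ofAdd 1 = 1 := by
      decide
    intro a b
    rcases zmod2_cases a with rfl | rfl <;> rcases zmod2_cases b with rfl | rfl
    · simp
    · simp
    · simp
    · rw [h2, if_pos rfl, if_neg h1, gr_mul_gr]

theorem grHom_one : (grHom 1 : MulAut (ProjectiveSpecialLinearGroup ι F)) = 1 := map_one _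

theorem grHom_ofAdd : (grHom (Multiplicative.ofAdd 1) : MulAut (ProjectiveSpecialLinearGroup ι F))
    = γ := by
  have h1 : (Multiplicative.ofAdd 1 : Multiplicative (ZMod 2)) ≠ 1 := by decide
  show (if (Multiplicative.ofAdd 1 : Multiplicative (ZMod 2)) = 1 then 1 else γ) = γ
  rw [if_neg h1]

/-- field and graph automorphisms -/
noncomputable def FG (ι : Type*) [Fintype ι] [DecidableEq ι] (K : Type*) [CommSemiring K]
    [Algebra K F] :
    (F ≃ₐ[K] F) × Multiplicative (ZMod 2) →* MulAut (ProjectiveSpecialLinearGroup ι F) :=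
  MonoidHom.noncommCoprod (Fld ι K) grHom (by
    intro σ z
    rcases zmod2_cases z with rfl | rfl
    · rw [grHom_one]; exact Commute.one_right _
    · rw [grHom_ofAdd, Fld_apply]
      exact (gr_mul_fld _).symm)

theorem FG_apply (K : Type*) [CommSemiring K] [Algebra K F] (σ : F ≃ₐ[K] F)
    (z : Multiplicative (ZMod 2)) : FG ι K (σ, z) = autQ (fldS σ.toRingEquiv) * grHom z := rfl

theorem det_surjective [Nonempty ι] :
    Function.Surjective (GeneralLinearGroup.det : GL ι F →* Fˣ) := by
  intro u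
  obtain ⟨i₀⟩ := ‹Nonempty ι›
  refine ⟨dg (Function.update 1 i₀ u.1) ?_, ?_⟩
  · intro i
    by_cases hi : i = i₀
    · subst hi; simp
    · simp [Function.update_of_ne hi]
  · apply Units.ext
    rw [GeneralLinearGroup.val_det_apply, dg_val, det_diagonal,
      Finset.prod_update_of_mem (Finset.mem_univ i₀)]
    simp

theorem isCyclic_map_range [Finite F] [Nonempty ι] :
    IsCyclic (Subgroup.map (QuotientGroup.mk' (Cfsg.Inn (ProjectiveSpecialLinearGroup ι F)))
      (cG : GL ι F →* _).range) := by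
  rw [MonoidHom.map_range]
  set ψ : GL ι F →* MulAut (ProjectiveSpecialLinearGroup ι F) ⧸
      Cfsg.Inn (ProjectiveSpecialLinearGroup ι F) := (QuotientGroup.mk' _).comp cG with hψ
  have hk : (GeneralLinearGroup.det : GL ι F →* Fˣ).ker ≤ ψ.ker := by
    intro g hg
    rw [MonoidHom.mem_ker] at hg ⊢
    have hdet : g.1.det = 1 := by
      have := congrArg Units.val hg
      rwa [GeneralLinearGroup.val_det_apply] at this
    let x : SpecialLinearGroup ι F := ⟨g.1, hdet⟩
    have e : g = SpecialLinearGroup.toGL x := by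
      apply Units.ext
      rfl
    show QuotientGroup.mk (cG g) = 1
    rw [QuotientGroup.eq_one_iff, e, cG_toGL]
    exact ⟨_, rfl⟩
  let ψ' : Fˣ →* _ := (GeneralLinearGroup.det : GL ι F →* Fˣ).liftOfSurjective det_surjective ⟨ψ, hk⟩
  have hψ' : ∀ g, ψ' (GeneralLinearGroup.det g) = ψ g := fun g =>
    MonoidHom.liftOfRightInverse_comp_apply _ _ _ ⟨ψ, hk⟩ g
  have hr : ψ.range = ψ'.range := by
    ext x
    constructor
    · rintro ⟨g, rfl⟩
      exact ⟨_, hψ' g⟩
    · rintro ⟨u, rfl⟩
      obtain ⟨g, rfl⟩ := det_surjective (ι := ι) u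
      exact ⟨g, (hψ' g).symm⟩
  rw [hr]
  exact isCyclic_of_surjective ψ'.rangeRestrict ψ'.rangeRestrict_surjective

theorem out_psl [Fintype F] {p f n : ℕ} [Fact p.Prime] (hF : Fintype.card F = p ^ f)
    (hn : 3 ≤ n) :
    ∃ φ : Cfsg.Out (ProjectiveSpecialLinearGroup (Fin n) F) →* Multiplicative (ZMod f × ZMod 2),
      Function.Surjective φ ∧ IsCyclic φ.ker ∧ Nat.card φ.ker = Nat.gcd n (p ^ f - 1) := by
  have h3 : 3 ≤ Fintype.card (Fin n) := by rw [Fintype.card_fin]; exact hn
  have : Nonempty (Fin n) := ⟨⟨0, by omega⟩⟩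
  have hchar : CharP F p := charP_of_card_eq_prime_pow hF
  let _ : Algebra (ZMod p) F := ZMod.algebra F p
  have hA : Finite (MulAut (ProjectiveSpecialLinearGroup (Fin n) F)) :=
    Finite.of_injective (fun α => (α : ProjectiveSpecialLinearGroup (Fin n) F →
      ProjectiveSpecialLinearGroup (Fin n) F)) DFunLike.coe_injective
  have hT := tvInv (ι := Fin n) (F := F) p h3
  have halg : ∀ σ : F ≃+* F, ∃ σ' : F ≃ₐ[ZMod p] F, σ'.toRingEquiv = σ := by
    intro σ
    refine ⟨AlgEquiv.ofRingEquiv (f := σ) (fun r => ?_), rfl⟩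
    have : (σ : F →+* F).comp (algebraMap (ZMod p) F) = algebraMap (ZMod p) F :=
      Subsingleton.elim _ _
    exact congrArg (fun φ : ZMod p →+* F => φ r) this
  obtain ⟨τ, hτs, hτk⟩ := AutPSL2.exists_hom_of_factorisation
    (cG : GL (Fin n) F →* _) (FG (F := F) (Fin n) (ZMod p))
    (by
      intro α
      obtain ⟨g, σ, h | h⟩ := aut_form p h3 α
      · obtain ⟨σ', rfl⟩ := halg σ
        exact ⟨g, (σ', 1), by rw [FG_apply, grHom_one, mul_one]; exact h⟩
      · obtain ⟨σ', rfl⟩ := halg σ
        exact ⟨g, (σ', Multiplicative.ofAdd 1), by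
          rw [FG_apply, grHom_ofAdd, ← mul_assoc]; exact h⟩)
    (by
      rintro ⟨σ, z⟩ h
      rcases zmod2_cases z with rfl | rfl
      · rw [FG_apply, grHom_one, mul_one]
        exact ⟨_, fld_mul_cG σ.toRingEquiv h⟩
      · rw [FG_apply, grHom_ofAdd]
        refine ⟨GeneralLinearGroup.map (σ.toRingEquiv : F →+* F) (gT h), ?_⟩
        rw [mul_assoc, gr_mul_cG, ← mul_assoc, fld_mul_cG, mul_assoc])
    (by
      rintro g ⟨σ, z⟩ h
      rcases zmod2_cases z with rfl | rfl
      · rw [FG_apply, grHom_one, mul_one] at h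
        have := (rigid h3 g σ.toRingEquiv h).1
        have hσ : σ = 1 := by
          ext t
          exact this t
        rw [hσ]
        rfl
      · exfalso
        rw [FG_apply, grHom_ofAdd] at h
        apply not_typeA_gr (ι := Fin n) (F := F) h3
        have e : (gr : MulAut (ProjectiveSpecialLinearGroup (Fin n) F)) =
            autQ (fldS σ.toRingEquiv.symm) * cG g := by
          rw [h, ← mul_assoc, fld_symm_mul, one_mul]
        rw [e]
        exact (typeA_fld _).mul (typeA_cG g))
  have hfin : Module.finrank (ZMod p) F = f := by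
    have h1 := Module.card_eq_pow_finrank (K := ZMod p) (V := F)
    rw [hF, ZMod.card] at h1
    exact (Nat.pow_right_injective (Fact.out : p.Prime).two_le h1).symm
  have hΓ : Nat.card (F ≃ₐ[ZMod p] F) = f := by
    rw [← Nat.card_congr (Equiv.ofBijective _
      (FiniteField.bijective_frobeniusAlgEquivOfAlgebraic_pow (ZMod p) F)), Nat.card_eq_fintype_card,
      Fintype.card_fin, hfin]
  have hf0 : 0 < f := by
    rw [← hΓ]; exact Nat.card_pos
  have : NeZero f := ⟨hf0.ne'⟩
  have hZ : Nat.card (Multiplicative (ZMod f)) = f := by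
    rw [Nat.card_eq_fintype_card, Fintype.card_multiplicative, ZMod.card]
  have e1 : (F ≃ₐ[ZMod p] F) ≃* Multiplicative (ZMod f) := mulEquivOfCyclicCardEq (by rw [hΓ, hZ])
  let e : (F ≃ₐ[ZMod p] F) × Multiplicative (ZMod 2) ≃* Multiplicative (ZMod f × ZMod 2) :=
    (MulEquiv.prodCongr e1 (MulEquiv.refl _)).trans
      (MulEquiv.prodMultiplicative (G := ZMod f) (H := ZMod 2)).symm
  have hq1 : 1 < Fintype.card F := Fintype.one_lt_card
  apply exists_out_hom' e (Cfsg.Inn (ProjectiveSpecialLinearGroup (Fin n) F)) τ hτs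
    (by
      rw [hτk]
      rintro _ ⟨x, rfl⟩
      obtain ⟨x, rfl⟩ := pm_surjective x
      exact ⟨SpecialLinearGroup.toGL x, cG_toGL x⟩)
  · rw [hτk]
    have h1 := card_range_cG (ι := Fin n) (F := F) h3
    have h2 := Cfsg.Agent.Lib.Helper6.card_PSL_field (F := F) n (by omega)
    have h3' : Nat.card (GL (Fin n) F) =
        ∏ i : Fin n, (Fintype.card F ^ n - Fintype.card F ^ (i : ℕ)) := by
      rw [Matrix.card_GL_field]
    have h4 : Nat.card (Cfsg.Inn (ProjectiveSpecialLinearGroup (Fin n) F)) =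
        Nat.card (ProjectiveSpecialLinearGroup (Fin n) F) :=
      (Nat.card_congr (MonoidHom.ofInjective (conj_injective h3)).toEquiv).symm
    rw [h4, ← hF]
    rw [← h3', ← h1] at h2
    have h5 : 0 < Fintype.card F - 1 := by omega
    apply Nat.eq_of_mul_eq_mul_right h5
    rw [← h2]; ring
  · rw [hτk]
    exact isCyclic_map_range

end Cfsg.Agent.Lib.Helper18.AutPSL
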