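import Mathlib
import Cfsg.Agent.Lib.Helper18.AutPSL.Out
import Cfsg.Agent.Lib.Helper18.AutPSL2.Out

set_option autoImplicit false

/-!
The order of `Aut(PSL_n(q))`.
-/

namespace Cfsg.Agent.Lib.Helper18.AutPSL

open Matrix MatrixGroups Pointwise

variable {F : Type*} [Field F]

theorem exists_algEquiv (p : ℕ) [Fact p.Prime] [Algebra (ZMod p) F] (σ : F ≃+* F) :
    ∃ σ' : F ≃ₐ[ZMod p] F, σ'.toRingEquiv = σ := by
  refine ⟨AlgEquiv.ofRingEquiv (f := σ) (fun r => ?_), rfl⟩
  have : (σ : F →+* F).comp (algebraMap (ZMod p) F) = algebraMap (ZMod p) F :=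
    Subsingleton.elim _ _
  exact congrArg (fun φ : ZMod p →+* F => φ r) this

/-- the projection of `Aut(PSL_n(F))` onto field and graph automorphisms -/
theorem exists_tau [Fintype F] (p : ℕ) [Fact p.Prime] [CharP F p] [Algebra (ZMod p) F]
    {ι : Type*} [Fintype ι] [DecidableEq ι] (h3 : 3 ≤ Fintype.card ι) :
    ∃ τ : MulAut (ProjectiveSpecialLinearGroup ι F) →*
        (F ≃ₐ[ZMod p] F) × Multiplicative (ZMod 2),
      Function.Surjective τ ∧ τ.ker = (cG : GL ι F →* _).range ∧
      ∀ x, τ (FG ι (ZMod p) x) = x := by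
  have hfact : ∀ (g : GL ι F) (x : (F ≃ₐ[ZMod p] F) × Multiplicative (ZMod 2)),
      cG g = FG ι (ZMod p) x → x = 1 := by
    rintro g ⟨σ, z⟩ h
    rcases zmod2_cases z with rfl | rfl
    · rw [FG_apply, grHom_one, mul_one] at h
      have := (rigid h3 g σ.toRingEquiv h).1
      have hσ : σ = 1 := by
        ext t
        exact this t
      rw [hσ]
      rfl
    · exfalso
      rw [FG_apply, grHom_ofAdd] at h
      apply not_typeA_gr (ι := ι) (F := F) h3
      have e : (gr : MulAut (ProjectiveSpecialLinearGroup ι F)) =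
          autQ (fldS σ.toRingEquiv.symm) * cG g := by
        rw [h, ← mul_assoc, fld_symm_mul, one_mul]
      rw [e]
      exact (typeA_fld _).mul (typeA_cG g)
  obtain ⟨τ, hτs, hτk⟩ := AutPSL2.exists_hom_of_factorisation
    (cG : GL ι F →* _) (FG (F := F) ι (ZMod p))
    (by
      intro α
      obtain ⟨g, σ, h | h⟩ := aut_form p h3 α
      · obtain ⟨σ', rfl⟩ := exists_algEquiv p σ
        exact ⟨g, (σ', 1), by rw [FG_apply, grHom_one, mul_one]; exact h⟩
      · obtain ⟨σ', rfl⟩ := exists_algEquiv p σ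
        exact ⟨g, (σ', Multiplicative.ofAdd 1), by
          rw [FG_apply, grHom_ofAdd, ← mul_assoc]; exact h⟩)
    (by
      rintro ⟨σ, z⟩ h
      rcases zmod2_cases z with rfl | rfl
      · rw [FG_apply, grHom_one, mul_one]
        exact ⟨_, fld_mul_cG σ.toRingEquiv h⟩
      · rw [FG_apply, grHom_ofAdd]
        refine ⟨GeneralLinearGroup.map (σ.toRingEquiv : F →+* F) (gT h), ?_⟩
        rw [mul_assoc, gr_mul_cG, ← mul_assoc, fld_mul_cG, mul_assoc])
    hfact
  -- modify `τ` so that it is a retraction of `FG`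
  have hinj : Function.Injective (τ.comp (FG (F := F) ι (ZMod p))) := by
    rw [injective_iff_map_eq_one]
    intro x hx
    have h1 : FG ι (ZMod p) x ∈ τ.ker := hx
    rw [hτk] at h1
    obtain ⟨g, hg⟩ := h1
    exact hfact g x hg
  have : Finite ((F ≃ₐ[ZMod p] F) × Multiplicative (ZMod 2)) := inferInstance
  have hbij : Function.Bijective (τ.comp (FG (F := F) ι (ZMod p))) :=
    Finite.injective_iff_bijective.1 hinj
  let e := MulEquiv.ofBijective _ hbij
  refine ⟨e.symm.toMonoidHom.comp τ, e.symm.surjective.comp hτs, ?_, ?_⟩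
  · rw [← hτk]
    ext x
    simp [MonoidHom.mem_ker]
  · intro x
    exact e.symm_apply_apply x

theorem card_gal [Fintype F] {p f : ℕ} [Fact p.Prime] [Algebra (ZMod p) F]
    (hF : Fintype.card F = p ^ f) : Nat.card (F ≃ₐ[ZMod p] F) = f := by
  have hfin : Module.finrank (ZMod p) F = f := by
    have h1 := Module.card_eq_pow_finrank (K := ZMod p) (V := F)
    rw [hF, ZMod.card] at h1
    exact (Nat.pow_right_injective (Fact.out : p.Prime).two_le h1).symm
  rw [← Nat.card_congr (Equiv.ofBijective _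
    (FiniteField.bijective_frobeniusAlgEquivOfAlgebraic_pow (ZMod p) F)), Nat.card_eq_fintype_card,
    Fintype.card_fin, hfin]

theorem card_range_eq_pgl {ι : Type*} [Fintype ι] [DecidableEq ι] (h3 : 3 ≤ Fintype.card ι) :
    Nat.card (cG : GL ι F →* _).range = Nat.card (ProjGenLinGroup ι F) := by
  rw [← Nat.card_congr (QuotientGroup.quotientKerEquivRange (cG : GL ι F →* _)).toEquiv,
    ker_cG h3]
  rfl

theorem card_range_eq_pgl2 :
    Nat.card (AutPSL2.cG : GL (Fin 2) F →* _).range = Nat.card (ProjGenLinGroup (Fin 2) F) := by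
  rw [← Nat.card_congr (QuotientGroup.quotientKerEquivRange
    (AutPSL2.cG : GL (Fin 2) F →* _)).toEquiv, AutPSL2.ker_cG]
  rfl

theorem card_eq_of_surjective {A Γ : Type*} [Group A] [Group Γ] (τ : A →* Γ)
    (hτ : Function.Surjective τ) : Nat.card A = Nat.card τ.ker * Nat.card Γ := by
  rw [← Subgroup.card_mul_index τ.ker, Subgroup.index_ker, MonoidHom.range_eq_top.2 hτ,
    Nat.card_congr Subgroup.topEquiv.toEquiv]

theorem card_aut [Fintype F] {p f : ℕ} [Fact p.Prime] (hF : Fintype.card F = p ^ f)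
    {ι : Type*} [Fintype ι] [DecidableEq ι] (h3 : 3 ≤ Fintype.card ι) :
    Nat.card (MulAut (ProjectiveSpecialLinearGroup ι F)) =
      2 * f * Nat.card (ProjGenLinGroup ι F) := by
  have hchar : CharP F p := charP_of_card_eq_prime_pow hF
  let _ : Algebra (ZMod p) F := ZMod.algebra F p
  obtain ⟨τ, hτs, hτk, -⟩ := exists_tau (F := F) p h3
  rw [card_eq_of_surjective τ hτs, hτk, card_range_eq_pgl h3, Nat.card_prod, card_gal hF]
  have : Nat.card (Multiplicative (ZMod 2)) = 2 := by
    rw [Nat.card_eq_fintype_card, Fintype.card_multiplicative, ZMod.card]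
  rw [this]
  ring

theorem card_aut2 [Fintype F] {p f : ℕ} [Fact p.Prime] (hF : Fintype.card F = p ^ f) :
    Nat.card (MulAut (ProjectiveSpecialLinearGroup (Fin 2) F)) =
      f * Nat.card (ProjGenLinGroup (Fin 2) F) := by
  have hchar : CharP F p := charP_of_card_eq_prime_pow hF
  let _ : Algebra (ZMod p) F := ZMod.algebra F p
  obtain ⟨τ, hτs, hτk⟩ := AutPSL2.exists_hom_of_factorisation
    (AutPSL2.cG : GL (Fin 2) F →* _) (AutPSL2.Fld (F := F) (ZMod p))
    (by
      intro α
      obtain ⟨g, σ, h⟩ := AutPSL2.exists_eq_cG_mul_fld p α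
      obtain ⟨σ', rfl⟩ := exists_algEquiv p σ
      exact ⟨g, σ', h⟩)
    (by
      intro σ h
      exact ⟨_, AutPSL2.fld_mul_cG σ.toRingEquiv h⟩)
    (by
      intro g σ h
      have := (AutPSL2.rigid g σ.toRingEquiv h).1
      ext t
      exact this t)
  rw [card_eq_of_surjective τ hτs, hτk, card_range_eq_pgl2, card_gal hF]
  ring

end Cfsg.Agent.Lib.Helper18.AutPSL
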