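import Mathlib
import Cfsg.Prelude.Def_LieTypeDatum
import Cfsg.Agent.Lib.Helper18.AutPSL.Card
import Cfsg.Agent.Lib.Helper18.AutPSL.H90

set_option autoImplicit false

/-!
Field and graph-field automorphisms of `PSL_n(q)`: structural reductions.
-/

namespace Cfsg.Agent.Lib.Helper18.AutPSL

open Matrix MatrixGroups

variable {ι : Type*} [Fintype ι] [DecidableEq ι] {F : Type*} [Field F]

local notation "γ" => (gr : MulAut (ProjectiveSpecialLinearGroup ι F))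

/-- the standard field automorphisms, as a homomorphism -/
noncomputable def fl : (F ≃+* F) →* MulAut (ProjectiveSpecialLinearGroup ι F) where
  toFun σ := autQ (fldS σ)
  map_one' := by
    rw [← autQ_one]
    congr 1
  map_mul' a b := by
    ext x
    obtain ⟨x, rfl⟩ := pm_surjective x
    rw [autQ_pm]
    show pm _ = pm _
    congr 1

theorem fl_apply (σ : F ≃+* F) :
    (fl σ : MulAut (ProjectiveSpecialLinearGroup ι F)) = autQ (fldS σ) := rfl

/-- the action of a field automorphism on `GL` -/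
noncomputable def gm (σ : F ≃+* F) : GL ι F →* GL ι F := GeneralLinearGroup.map (σ : F →+* F)

theorem gm_val (σ : F ≃+* F) (h : GL ι F) : (gm σ h).1 = mp σ h.1 := rfl

theorem fl_mul_cG (σ : F ≃+* F) (h : GL ι F) : fl σ * cG h = cG (gm σ h) * fl σ :=
  fld_mul_cG σ h

theorem gr_mul_fl (σ : F ≃+* F) : γ * fl σ = fl σ * γ := gr_mul_fld σ

theorem gr_inv : γ⁻¹ = γ := inv_eq_of_mul_eq_one_left gr_mul_gr

theorem cG_eq_one_of_center {g : GL ι F} (h : g ∈ Subgroup.center (GL ι F)) : cG g = 1 := by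
  ext x
  obtain ⟨x, rfl⟩ := pm_surjective x
  rw [cG_pm]
  show pm _ = pm x
  congr 1
  apply conjS_eq_of_mul
  have := Subgroup.mem_center_iff.1 h (SpecialLinearGroup.toGL x)
  exact congrArg Units.val this

/-- scalar matrices in `GL` -/
noncomputable def sc (a : F) (ha : a ≠ 0) : GL ι F := GeneralLinearGroup.scalar ι (Units.mk0 a ha)

theorem sc_val (a : F) (ha : a ≠ 0) : (sc a ha : GL ι F).1 = a • (1 : Matrix ι ι F) := by
  ext i j
  simp [sc, Matrix.one_apply, Matrix.scalar_apply, Matrix.diagonal_apply]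

theorem cG_sc (a : F) (ha : a ≠ 0) : cG (sc a ha : GL ι F) = 1 := by
  apply cG_eq_one_of_center
  rw [GeneralLinearGroup.center_eq_range_scalar]
  exact ⟨_, rfl⟩

section Fin

variable {n : ℕ}

theorem rigid_fin (hn : 2 ≤ n) (g : GL (Fin n) F) (σ : F ≃+* F) (h : cG g = fl σ) :
    σ = 1 ∧ g ∈ Subgroup.center (GL (Fin n) F) := by
  rcases Nat.lt_or_ge 2 n with h3 | h3
  · have := rigid (by rw [Fintype.card_fin]; omega) g σ h
    exact ⟨RingEquiv.ext this.1, this.2⟩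
  · obtain rfl : n = 2 := by omega
    have := AutPSL2.rigid g σ (by rw [cG_eq_cG2, fld_eq_fld2]; exact h)
    exact ⟨RingEquiv.ext this.1, this.2⟩

theorem ker_cG_fin (hn : 2 ≤ n) :
    (cG : GL (Fin n) F →* _).ker = Subgroup.center (GL (Fin n) F) := by
  ext g
  rw [MonoidHom.mem_ker]
  constructor
  · intro h
    exact (rigid_fin hn g 1 (by rw [h, map_one])).2
  · exact cG_eq_one_of_center

theorem exists_sc_of_cG_eq_one (hn : 2 ≤ n) {g : GL (Fin n) F} (h : cG g = 1) :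
    ∃ (a : F) (ha : a ≠ 0), g = sc a ha := by
  have h1 : g ∈ (cG : GL (Fin n) F →* _).ker := h
  rw [ker_cG_fin hn, GeneralLinearGroup.center_eq_range_scalar] at h1
  obtain ⟨a, rfl⟩ := h1
  exact ⟨a, a.ne_zero, by simp [sc]⟩

theorem fl_injective (hn : 2 ≤ n) :
    Function.Injective (fl : (F ≃+* F) →* MulAut (ProjectiveSpecialLinearGroup (Fin n) F)) := by
  rw [injective_iff_map_eq_one]
  intro σ hσ
  exact (rigid_fin hn 1 σ (by rw [map_one, hσ])).1

theorem inndiag_eq : Cfsg.inndiagPSL n F = (cG : GL (Fin n) F →* _).range := by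
  apply le_antisymm
  · apply (Subgroup.closure_le _).2
    intro β hβ
    obtain ⟨g, hg⟩ := eq_cG_of_isInnerDiagonal hβ
    exact ⟨g, hg.symm⟩
  · rintro _ ⟨g, rfl⟩
    exact Subgroup.subset_closure (isInnerDiagonal_cG g)

end Fin

/-! ### powers -/

/-- partial norms in `GL` -/
noncomputable def nrmG (σ : F ≃+* F) (g : GL ι F) : ℕ → GL ι F
  | 0 => 1
  | k + 1 => g * gm σ (nrmG σ g k)

theorem nrmG_val (σ : F ≃+* F) (g : GL ι F) (k : ℕ) : (nrmG σ g k).1 = nrm σ g.1 k := by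
  induction k with
  | zero => rfl
  | succ k ih =>
    show g.1 * (gm σ (nrmG σ g k)).1 = _
    rw [gm_val, ih, nrm_succ]

theorem pow_cG_fl (g : GL ι F) (σ : F ≃+* F) (k : ℕ) :
    (cG g * fl σ) ^ k = cG (nrmG σ g k) * fl (σ ^ k) := by
  induction k with
  | zero => simp [nrmG]
  | succ k ih =>
    rw [pow_succ', ih, pow_succ', map_mul]
    show _ = cG (g * gm σ (nrmG σ g k)) * _
    rw [map_mul]
    calc cG g * fl σ * (cG (nrmG σ g k) * fl (σ ^ k))
        = cG g * (fl σ * cG (nrmG σ g k)) * fl (σ ^ k) := by simp only [mul_assoc]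
      _ = _ := by rw [fl_mul_cG]; simp only [mul_assoc]

theorem conj_reduce {A : Type*} [Group A] (a ν s : A) (h : Commute ν s) :
    (a * ν)⁻¹ * s * (a * ν) = (ν⁻¹ * a * ν)⁻¹ * s * (ν⁻¹ * a * ν) := by
  have h1 : ν * s * ν⁻¹ = s := by rw [h.eq, mul_assoc, mul_inv_cancel, mul_one]
  calc (a * ν)⁻¹ * s * (a * ν) = ν⁻¹ * a⁻¹ * s * a * ν := by group
    _ = ν⁻¹ * a⁻¹ * (ν * s * ν⁻¹) * a * ν := by rw [h1]
    _ = _ := by group

theorem fl_conj_cG (σ : F ≃+* F) (a : GL ι F) : fl σ * cG a * (fl σ)⁻¹ = cG (gm σ a) := by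
  rw [fl_mul_cG, mul_assoc, mul_inv_cancel, mul_one]

theorem gr_conj_cG (a : GL ι F) : γ * cG a * γ⁻¹ = cG (gT a) := by
  rw [gr_mul_cG, mul_assoc, mul_inv_cancel, mul_one]

section Finite

variable [Fintype F]

theorem exists_pow_eq (p : ℕ) [Fact p.Prime] [CharP F p] (σ : F ≃+* F) : ∃ i : ℕ, ∀ x, σ x = x ^ (p ^ i) := by
  let _ : Algebra (ZMod p) F := ZMod.algebra F p
  obtain ⟨σ', rfl⟩ := exists_algEquiv p σ
  obtain ⟨⟨i, hilt⟩, hi⟩ := (FiniteField.bijective_frobeniusAlgHom_pow (ZMod p) F).2 σ'.toAlgHom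
  have hpow : ∀ (k : ℕ) (x : F), (FiniteField.frobeniusAlgHom (ZMod p) F ^ k) x = x ^ (p ^ k) := by
    intro k x
    rw [AlgHom.coe_pow, FiniteField.coe_frobeniusAlgHom, pow_iterate, ZMod.card]
  refine ⟨i, fun x => ?_⟩
  rw [← hpow]
  exact (congrArg (fun φ : F →ₐ[ZMod p] F => φ x) hi).symm

theorem ringAut_comm (p : ℕ) [Fact p.Prime] [CharP F p] (σ τ : F ≃+* F) : σ * τ = τ * σ := by
  obtain ⟨i, hi⟩ := exists_pow_eq p σ
  obtain ⟨j, hj⟩ := exists_pow_eq p τ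
  ext x
  show σ (τ x) = τ (σ x)
  rw [hi, hj, hj, hi, ← pow_mul, ← pow_mul, mul_comm]

variable {n : ℕ}

theorem conj_cG_mem (p : ℕ) [Fact p.Prime] [CharP F p] (hn : 2 ≤ n) (β : MulAut (ProjectiveSpecialLinearGroup (Fin n) F))
    (a : GL (Fin n) F) : ∃ u : GL (Fin n) F, β * cG a * β⁻¹ = cG u := by
  obtain ⟨g, σ, h | h⟩ := aut_form_fin p hn β
  · refine ⟨g * gm σ a * g⁻¹, ?_⟩
    rw [map_mul, map_mul, ← fl_conj_cG, h, map_inv]
    show cG g * fl σ * cG a * (cG g * fl σ)⁻¹ = _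
    group
  · refine ⟨g * gm σ (gT a) * g⁻¹, ?_⟩
    rw [map_mul, map_mul, ← fl_conj_cG, ← gr_conj_cG, h, map_inv]
    show cG g * fl σ * gr * cG a * (cG g * fl σ * gr)⁻¹ = _
    group

theorem exists_conj_of_commute (p : ℕ) [Fact p.Prime] [CharP F p] (hn : 2 ≤ n)
    (s α : MulAut (ProjectiveSpecialLinearGroup (Fin n) F))
    (hs1 : ∀ τ : F ≃+* F, Commute (fl τ) s) (hs2 : Commute gr s) :
    ∃ u : GL (Fin n) F, α⁻¹ * s * α = (cG u)⁻¹ * s * cG u := by
  obtain ⟨g, τ, h | h⟩ := aut_form_fin p hn α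
  · obtain ⟨u, hu⟩ := conj_cG_mem p hn (fl τ)⁻¹ g
    refine ⟨u, ?_⟩
    rw [inv_inv] at hu
    rw [← hu, h]
    exact conj_reduce _ _ _ (hs1 τ)
  · obtain ⟨u, hu⟩ := conj_cG_mem p hn (fl τ * gr)⁻¹ g
    refine ⟨u, ?_⟩
    rw [inv_inv] at hu
    rw [← hu, h, mul_assoc]
    exact conj_reduce _ _ _ ((hs1 τ).mul_left hs2)

theorem exists_conj_fld (p : ℕ) [Fact p.Prime] [CharP F p] (hn : 2 ≤ n)
    {x : MulAut (ProjectiveSpecialLinearGroup (Fin n) F)}
    (hx : Cfsg.IsFieldAutClassPSL x) :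
    ∃ (u : GL (Fin n) F) (σ : F ≃+* F), σ ≠ 1 ∧ x = (cG u)⁻¹ * fl σ * cG u := by
  obtain ⟨α, σ, hσ, h⟩ := hx
  have e : α * x * α⁻¹ = fl σ := eq_fld_of_isStdField h
  obtain ⟨u, hu⟩ := exists_conj_of_commute p hn (fl σ) α
    (fun τ => by
      show fl τ * fl σ = fl σ * fl τ
      rw [← map_mul, ← map_mul, ringAut_comm p])
    (gr_mul_fl σ)
  refine ⟨u, σ, hσ, ?_⟩
  rw [← hu, ← e]
  group

theorem exists_conj_gfld (p : ℕ) [Fact p.Prime] [CharP F p] 
    {x : MulAut (ProjectiveSpecialLinearGroup (Fin n) F)}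
    (hx : Cfsg.IsGraphFieldAutClassPSL x) :
    3 ≤ n ∧ ∃ (u : GL (Fin n) F) (σ : F ≃+* F), σ ≠ 1 ∧ x = (cG u)⁻¹ * (fl σ * gr) * cG u := by
  obtain ⟨h3, α, φ, γ', σ, hσ, h1, h2, h⟩ := hx
  refine ⟨h3, ?_⟩
  have e1 : φ = fl σ := eq_fld_of_isStdField h1
  have e2 : γ' = gr := eq_gr_of_isInverseTranspose h2
  rw [e1, e2] at h
  obtain ⟨u, hu⟩ := exists_conj_of_commute p (by omega) (fl σ * gr) α
    (fun τ => by
      apply Commute.mul_right
      · show fl τ * fl σ = fl σ * fl τ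
        rw [← map_mul, ← map_mul, ringAut_comm p]
      · exact (gr_mul_fl τ).symm)
    (Commute.mul_right (gr_mul_fl σ) (Commute.refl _))
  refine ⟨u, σ, hσ, ?_⟩
  rw [← hu, ← h]
  group

end Finite

end Cfsg.Agent.Lib.Helper18.AutPSL
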