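import Mathlib
import Cfsg.Agent.Lib.Helper18.AutPSL.H90
import Cfsg.Agent.Lib.Helper17.UnitCoord
import Cfsg.Agent.Lib.Helper17.FieldInvol

set_option autoImplicit false

/-!
Hermitian matrices over a finite field are of the form `h * σ(h)ᵀ`.
-/

namespace Cfsg.Agent.Lib.Helper18.AutPSL

open Matrix MatrixGroups Cfsg.Agent.Lib.Helper17

variable {ι : Type*} [Fintype ι] [DecidableEq ι] {F : Type*} [Field F]

/-- the conjugate transpose -/
def st (σ : F ≃+* F) (M : Matrix ι ι F) : Matrix ι ι F := (mp σ M)ᵀ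

theorem st_apply (σ : F ≃+* F) (M : Matrix ι ι F) (i j : ι) : st σ M i j = σ (M j i) := rfl

theorem st_mul (σ : F ≃+* F) (M N : Matrix ι ι F) : st σ (M * N) = st σ N * st σ M := by
  rw [st, map_mul, Matrix.transpose_mul]
  rfl

theorem st_one (σ : F ≃+* F) : st σ (1 : Matrix ι ι F) = 1 := by
  rw [st, map_one, Matrix.transpose_one]

theorem st_smul (σ : F ≃+* F) (a : F) (M : Matrix ι ι F) : st σ (a • M) = σ a • st σ M := by
  rw [st, mp_smul, Matrix.transpose_smul]
  rfl

theorem st_st (σ : F ≃+* F) (hσ : ∀ x, σ (σ x) = x) (M : Matrix ι ι F) :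
    st σ (st σ M) = M := by
  ext i j
  rw [st_apply, st_apply, hσ]

theorem det_st (σ : F ≃+* F) (M : Matrix ι ι F) : (st σ M).det = σ M.det := by
  rw [st, Matrix.det_transpose, mp_eq_map]
  exact (RingEquiv.map_det σ M).symm

variable [Fintype F] {q n : ℕ}

theorem hermForm_mulVec_right (hF : Fintype.card F = q ^ 2) (σ : F ≃+* F)
    (hσq : ∀ x, σ x = x ^ q) (M : Matrix (Fin n) (Fin n) F) (x y : Fin n → F) :
    Cfsg.hermForm n F q x (M *ᵥ y) = Cfsg.hermForm n F q (st σ M *ᵥ x) y := by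
  simp only [Cfsg.hermForm, Matrix.mulVec, dotProduct, sum_pow_q hF, ← hσq, st_apply,
    Finset.mul_sum, Finset.sum_mul]
  rw [Finset.sum_comm]
  apply Finset.sum_congr rfl
  intro j _
  apply Finset.sum_congr rfl
  intro i _
  rw [map_mul]
  ring

theorem exists_herm_factor (hF : Fintype.card F = q ^ 2) (σ : F ≃+* F)
    (hσq : ∀ x, σ x = x ^ q) (M : Matrix (Fin n) (Fin n) F) (hM : st σ M = M)
    (hdet : M.det ≠ 0) :
    ∃ h : Matrix (Fin n) (Fin n) F, h.det ≠ 0 ∧ M = h * st σ h := by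
  have hσ2 : ∀ x, σ (σ x) = x := fun x => by rw [hσq, hσq, pow_q_pow_q hF]
  have hMu : IsUnit M.det := isUnit_iff_ne_zero.2 hdet
  let B := (hermB hF n).compl₂ (Matrix.mulVecLin M)
  have hB : ∀ x y, B x y = Cfsg.hermForm n F q (M *ᵥ y) x := fun x y => rfl
  obtain ⟨Φ, hΦ⟩ := exists_herm_coords hF B
    ⟨fun x y => by
      rw [hB, hB, frobQ_apply, hermForm_conj hF, hermForm_mulVec_right hF σ hσq, hM]⟩
    ⟨fun x hx => by
      apply hermForm_right_eq_zero hF n x
      intro z
      have := hx (M⁻¹ *ᵥ z)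
      rwa [hB, Matrix.mulVec_mulVec, Matrix.mul_nonsing_inv M hMu, Matrix.one_mulVec] at this,
     fun y hy => by
      have h1 : M *ᵥ y = 0 := hermForm_left_eq_zero hF n _ (fun x => hy x)
      have := congrArg (fun v => M⁻¹ *ᵥ v) h1
      simpa [Matrix.mulVec_mulVec, Matrix.nonsing_inv_mul M hMu] using this⟩
    (Module.finrank_fin_fun F)
  let P := LinearMap.toMatrix' Φ.toLinearMap
  have hP : ∀ x, Φ x = P *ᵥ x := fun x => by
    rw [← Matrix.toLin'_apply, Matrix.toLin'_toMatrix']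
    rfl
  have h1 : st σ P * M * P = 1 := by
    apply Matrix.toLin'.injective
    apply LinearMap.ext
    intro y
    rw [Matrix.toLin'_apply, Matrix.toLin'_one, LinearMap.id_apply]
    rw [← sub_eq_zero]
    apply hermForm_left_eq_zero hF n
    intro x
    rw [hermForm_sub_left, sub_eq_zero, ← hΦ x y, hB, hP, hP, hermForm_mulVec_right hF σ hσq,
      Matrix.mulVec_mulVec, Matrix.mulVec_mulVec, Matrix.mul_assoc]
  have hPdet : P.det ≠ 0 := by
    intro h0
    have := congrArg Matrix.det h1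
    rw [Matrix.det_mul, h0, mul_zero, Matrix.det_one] at this
    exact zero_ne_one this
  have hPu : IsUnit P.det := isUnit_iff_ne_zero.2 hPdet
  refine ⟨st σ P⁻¹, ?_, ?_⟩
  · rw [det_st]
    intro h0
    have h2 : (P⁻¹).det = 0 := by simpa using h0
    have := congrArg Matrix.det (Matrix.mul_nonsing_inv P hPu)
    rw [Matrix.det_mul, h2, mul_zero, Matrix.det_one] at this
    exact zero_ne_one this
  · rw [st_st σ hσ2]
    have h3 : st σ P⁻¹ * st σ P = 1 := by
      rw [← st_mul, Matrix.mul_nonsing_inv P hPu, st_one]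
    calc M = (st σ P⁻¹ * st σ P) * M * (P * P⁻¹) := by
          rw [h3, Matrix.mul_nonsing_inv P hPu, Matrix.one_mul, Matrix.mul_one]
      _ = st σ P⁻¹ * (st σ P * M * P) * P⁻¹ := by simp only [Matrix.mul_assoc]
      _ = _ := by rw [h1, Matrix.mul_one]

end Cfsg.Agent.Lib.Helper18.AutPSL
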