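import Mathlib
import Cfsg.Agent.Lib.Helper18.AutPSL.FieldAut
import Cfsg.Agent.Lib.Helper18.AutPSL.HermFactor

set_option autoImplicit false

/-!
Conjugacy of elements of prime order in the coset of a field automorphism of `PSL_n(q)`.
-/

namespace Cfsg.Agent.Lib.Helper18.AutPSL

open Matrix MatrixGroups

variable {F : Type*} [Field F] {n : ℕ}

theorem eq_of_smul_eq_smul_GL (hn : 2 ≤ n) (g : GL (Fin n) F) {a b : F}
    (h : a • g.1 = b • g.1) : a = b := by
  have h1 := congrArg (fun M => M * g⁻¹.1) h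
  simp only [Matrix.smul_mul, Units.mul_inv] at h1
  have h2 := congrFun (congrFun h1 ⟨0, by omega⟩) ⟨0, by omega⟩
  simpa using h2

theorem field_core [Finite F] (hn : 2 ≤ n) (g : GL (Fin n) F) (σ : F ≃+* F) (r : ℕ)
    (hr0 : 0 < r) (hr : orderOf σ = r) (h : (cG g * fl σ) ^ r = 1) :
    ∃ b : GL (Fin n) F, cG g * fl σ = cG b * fl σ * (cG b)⁻¹ := by
  have hσ : σ ^ r = 1 := by rw [← hr]; exact pow_orderOf_eq_one σ
  rw [pow_cG_fl, hσ, map_one, mul_one] at h
  obtain ⟨lam, h0, hl⟩ := exists_sc_of_cG_eq_one hn h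
  have hN : nrm σ g.1 r = lam • 1 := by rw [← nrmG_val, hl, sc_val]
  have hfix : σ lam = lam := by
    have h1 := nrm_succ σ g.1 r
    rw [nrm_succ', hσ, mp_one, hN, mp_smul, map_one, Matrix.smul_mul, Matrix.one_mul,
      Matrix.mul_smul, Matrix.mul_one] at h1
    exact (eq_of_smul_eq_smul_GL hn g h1).symm
  obtain ⟨μ, hμ0, hμ⟩ := nrmS_surj σ r hr0 hr lam⁻¹ (inv_ne_zero h0) (by rw [map_inv₀, hfix])
  obtain ⟨b, hb, hb2⟩ := hilbert90 σ (μ • g.1) r hr0 hr (by
    rw [nrm_smul, hμ, hN, smul_smul, inv_mul_cancel₀ h0, one_smul])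
  let B : GL (Fin n) F := GeneralLinearGroup.mkOfDetNeZero b hb
  have e : sc μ hμ0 * g * gm σ B = B := by
    apply Units.ext
    show (sc μ hμ0 : GL (Fin n) F).1 * g.1 * mp σ b = b
    rw [sc_val, Matrix.smul_mul, Matrix.one_mul]
    exact hb2
  have e2 : cG B = cG g * cG (gm σ B) := by
    conv_lhs => rw [← e]
    rw [map_mul, map_mul, cG_sc, one_mul]
  have e3 := fl_mul_cG σ B
  refine ⟨B, ?_⟩
  calc cG g * fl σ = cG g * (fl σ * cG B) * (cG B)⁻¹ := by group
    _ = cG g * (cG (gm σ B) * fl σ) * (cG B)⁻¹ := by rw [e3]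
    _ = (cG g * cG (gm σ B)) * fl σ * (cG B)⁻¹ := by group
    _ = _ := by rw [← e2]

section

variable {ι : Type*} [Fintype ι] [DecidableEq ι]

theorem gf_mul_cG (σ : F ≃+* F) (g : GL ι F) :
    (fl σ * gr) * cG g = cG (gm σ (gT g)) * (fl σ * gr) := by
  rw [mul_assoc, gr_mul_cG, ← mul_assoc, fl_mul_cG, mul_assoc]

theorem gf_mul_gf (σ : F ≃+* F) :
    (fl σ * gr) * (fl σ * gr) = (fl (σ * σ) : MulAut (ProjectiveSpecialLinearGroup ι F)) := by
  calc (fl σ * gr) * (fl σ * gr)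
      = fl σ * (gr * fl σ) * (gr : MulAut (ProjectiveSpecialLinearGroup ι F)) := by group
    _ = fl σ * (fl σ * gr) * gr := by rw [gr_mul_fl]
    _ = fl σ * fl σ * (gr * gr) := by group
    _ = _ := by rw [gr_mul_gr, mul_one, map_mul]

theorem gm_gT_val (σ : F ≃+* F) (g : GL ι F) : (gm σ (gT g)).1 = st σ g⁻¹.1 := rfl

theorem det_GL_ne_zero (g : GL ι F) : g.1.det ≠ 0 := by
  have := g.det.ne_zero
  simpa using this

end

theorem gfield_core [Fintype F] (hn : 2 ≤ n) (g : GL (Fin n) F) (σ : F ≃+* F) (hσ1 : σ ≠ 1)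
    (hσ2 : σ * σ = 1) (h : (cG g * (fl σ * gr)) ^ 2 = 1) :
    ∃ b : GL (Fin n) F, cG g * (fl σ * gr) = cG b * (fl σ * gr) * (cG b)⁻¹ := by
  have hs : ∀ x, σ (σ x) = x := fun x => congrArg (fun τ : F ≃+* F => τ x) hσ2
  obtain ⟨q, hq, hσq⟩ := Cfsg.Agent.Lib.Helper17.exists_card_eq_sq_of_involution (σ : F →+* F)
    (by
      intro h0
      apply hσ1
      ext x
      exact congrArg (fun τ : F →+* F => τ x) h0) hs
  rw [Nat.card_eq_fintype_card] at hq
  have h1 : cG (g * gm σ (gT g)) = 1 := by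
    rw [← h, pow_two, map_mul]
    calc cG g * cG (gm σ (gT g))
        = cG g * cG (gm σ (gT g)) * ((fl σ * gr) * (fl σ * gr)) := by
          rw [gf_mul_gf, hσ2, map_one, mul_one]
      _ = cG g * (cG (gm σ (gT g)) * (fl σ * gr)) * (fl σ * gr) := by group
      _ = _ := by rw [← gf_mul_cG]; group
  obtain ⟨lam, h0, hl⟩ := exists_sc_of_cG_eq_one hn h1
  have h2 : g.1 * st σ g⁻¹.1 = lam • 1 := by
    rw [← sc_val lam h0, ← hl]
    rfl
  have h3 : g.1 = lam • st σ g.1 := by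
    have h5 : st σ g⁻¹.1 * st σ g.1 = 1 := by rw [← st_mul, Units.mul_inv, st_one]
    calc g.1 = g.1 * (st σ g⁻¹.1 * st σ g.1) := by rw [h5, Matrix.mul_one]
      _ = (g.1 * st σ g⁻¹.1) * st σ g.1 := by rw [Matrix.mul_assoc]
      _ = _ := by rw [h2, Matrix.smul_mul, Matrix.one_mul]
  have h4 : lam * σ lam = 1 := by
    have h5 : st σ g.1 = σ lam • g.1 := by
      conv_lhs => rw [h3, st_smul, st_st σ hs]
    have h6 : (1 : F) • g.1 = (lam * σ lam) • g.1 := by
      rw [one_smul, ← smul_smul, ← h5]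
      exact h3
    exact (eq_of_smul_eq_smul_GL hn g h6).symm
  have hord : orderOf σ = 2 := orderOf_eq_prime (by rw [pow_two]; exact hσ2) hσ1
  obtain ⟨c, hc0, hc⟩ := hilbert90_one σ lam 2 (by norm_num) hord (by
    simp [nrmS_succ, nrmS_zero, h4])
  have hc1 : σ c ≠ 0 := by simpa using hc0
  have hM : st σ (σ c • g.1) = σ c • g.1 := by
    rw [st_smul, hs]
    conv_rhs => rw [h3, smul_smul, mul_comm, hc]
  obtain ⟨b, hb, hb2⟩ := exists_herm_factor hq σ hσq (σ c • g.1) hM (by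
    rw [Matrix.det_smul]
    exact mul_ne_zero (pow_ne_zero _ hc1) (det_GL_ne_zero g))
  let B : GL (Fin n) F := GeneralLinearGroup.mkOfDetNeZero b hb
  have e : sc (σ c) hc1 * g * gm σ (gT B) = B := by
    apply Units.ext
    show (sc (σ c) hc1 : GL (Fin n) F).1 * g.1 * st σ B⁻¹.1 = b
    rw [sc_val, Matrix.smul_mul, Matrix.one_mul, hb2, Matrix.mul_assoc, ← st_mul]
    have : B⁻¹.1 * b = 1 := Units.inv_mul B
    rw [this, st_one, Matrix.mul_one]
  have e2 : cG B = cG g * cG (gm σ (gT B)) := by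
    conv_lhs => rw [← e]
    rw [map_mul, map_mul, cG_sc, one_mul]
  have e3 := gf_mul_cG σ B
  refine ⟨B, ?_⟩
  calc cG g * (fl σ * gr) = cG g * ((fl σ * gr) * cG B) * (cG B)⁻¹ := by group
    _ = cG g * (cG (gm σ (gT B)) * (fl σ * gr)) * (cG B)⁻¹ := by rw [e3]
    _ = (cG g * cG (gm σ (gT B))) * (fl σ * gr) * (cG B)⁻¹ := by group
    _ = _ := by rw [← e2]

theorem conj_of_core (s : MulAut (ProjectiveSpecialLinearGroup (Fin n) F)) (u d : GL (Fin n) F)
    (r : ℕ)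
    (core : ∀ g : GL (Fin n) F, (cG g * s) ^ r = 1 → ∃ b : GL (Fin n) F,
      cG g * s = cG b * s * (cG b)⁻¹)
    (ho : (cG d * ((cG u)⁻¹ * s * cG u)) ^ r = 1) :
    Cfsg.IsConjUnder (cG : GL (Fin n) F →* _).range ((cG u)⁻¹ * s * cG u)
      (cG d * ((cG u)⁻¹ * s * cG u)) := by
  have e1 : cG (u * d * u⁻¹) * s = cG u * (cG d * ((cG u)⁻¹ * s * cG u)) * (cG u)⁻¹ := by
    rw [map_mul, map_mul, map_inv]
    group
  obtain ⟨b, hb⟩ := core (u * d * u⁻¹) (by rw [e1, conj_pow, ho, mul_one, mul_inv_cancel])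
  refine ⟨cG (u⁻¹ * b * u), ⟨_, rfl⟩, ?_⟩
  have e2 : cG d * ((cG u)⁻¹ * s * cG u) = (cG u)⁻¹ * (cG (u * d * u⁻¹) * s) * cG u := by
    rw [e1]
    group
  rw [e2, hb, map_mul, map_mul, map_inv]
  group

theorem orderOf_conj' {A : Type*} [Group A] (u s : A) : orderOf (u⁻¹ * s * u) = orderOf s := by
  have := (MulAut.conj u⁻¹).orderOf_eq s
  rwa [MulAut.conj_apply, inv_inv] at this

/-- a graph-field automorphism of prime order has order two -/
theorem gfield_order (h3 : 3 ≤ n) (σ : F ≃+* F) {r : ℕ} (hr : r.Prime)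
    (h : orderOf (fl σ * gr : MulAut (ProjectiveSpecialLinearGroup (Fin n) F)) = r) :
    r = 2 ∧ σ * σ = 1 := by
  have h1 : (fl σ * gr : MulAut (ProjectiveSpecialLinearGroup (Fin n) F)) ^ r = 1 := by
    rw [← h]
    exact pow_orderOf_eq_one _
  have hr2 : r = 2 := by
    rcases hr.eq_two_or_odd' with h2 | ⟨k, hk⟩
    · exact h2
    · exfalso
      have hc : Commute (fl σ) (gr : MulAut (ProjectiveSpecialLinearGroup (Fin n) F)) :=
        (gr_mul_fl σ).symm
      rw [hc.mul_pow, ← map_pow] at h1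
      have h4 : (gr : MulAut (ProjectiveSpecialLinearGroup (Fin n) F)) ^ r = gr := by
        rw [hk, pow_succ, pow_mul, pow_two, gr_mul_gr, one_pow, one_mul]
      rw [h4] at h1
      apply not_typeA_gr (ι := Fin n) (F := F) (by rw [Fintype.card_fin]; exact h3)
      have h5 : (gr : MulAut (ProjectiveSpecialLinearGroup (Fin n) F)) = fl (σ ^ r)⁻¹ := by
        rw [map_inv]
        exact (inv_eq_of_mul_eq_one_right h1).symm
      rw [h5]
      exact typeA_fld _
  refine ⟨hr2, ?_⟩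
  rw [hr2, pow_two, gf_mul_gf] at h1
  exact fl_injective (n := n) (by omega) (by rw [h1, map_one])

end Cfsg.Agent.Lib.Helper18.AutPSL
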