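import Mathlib
import Cfsg.Prelude.Def_LieTypeDatum

set_option autoImplicit false

/-!
Generic lemmas: counting the classes into which a class splits, centralisers of conjugates,
subgroups of cyclic groups.
-/

namespace Cfsg.Agent.Lib.Helper18.AutPSL

theorem card_eq_of_surj {E A B : Type*} (a : E → A) (b : E → B) (ha : Function.Surjective a)
    (hb : Function.Surjective b) (h : ∀ e e', a e = a e' ↔ b e = b e') :
    Nat.card A = Nat.card B := by
  apply Nat.card_congr
  refine Equiv.ofBijective (fun z => b (Function.surjInv ha z)) ⟨?_, ?_⟩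
  · intro z z' hz
    have := (h _ _).2 hz
    rwa [Function.surjInv_eq ha, Function.surjInv_eq ha] at this
  · intro w
    obtain ⟨e, rfl⟩ := hb w
    exact ⟨a e, (h _ _).1 (Function.surjInv_eq ha (a e))⟩

theorem isConjUnder_equivalence {X : Type*} [Group X] (K : Subgroup X) :
    Equivalence (Cfsg.IsConjUnder K) where
  refl x := ⟨1, K.one_mem, by simp⟩
  symm := by
    rintro x y ⟨k, hk, rfl⟩
    exact ⟨k⁻¹, K.inv_mem hk, by group⟩
  trans := by
    rintro x y z ⟨k, hk, rfl⟩ ⟨l, hl, rfl⟩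
    exact ⟨l * k, K.mul_mem hl hk, by group⟩

/-- the number of `K`-classes in an `H`-class, where `H` is the image of `E` and `K` the image of
the kernel of a surjection `d`. -/
theorem splitClassCount_eq {E X Q : Type*} [Group E] [Group X] [Group Q] (c : E →* X)
    (d : E →* Q) (hd : Function.Surjective d) (x : X) :
    Cfsg.splitClassCount c.range (d.ker.map c) x =
      (((Subgroup.centralizer {x}).comap c).map d).index := by
  unfold Cfsg.splitClassCount
  let a : E → Quot (fun y z : {y : X // Cfsg.IsConjUnder c.range x y} =>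
      Cfsg.IsConjUnder (d.ker.map c) y.1 z.1) :=
    fun e => Quot.mk _ ⟨c e * x * (c e)⁻¹, c e, ⟨e, rfl⟩, rfl⟩
  let b : E → Q ⧸ ((Subgroup.centralizer {x}).comap c).map d := fun e => QuotientGroup.mk (d e)
  apply card_eq_of_surj a b
  · intro z
    induction z using Quot.ind with
    | _ z =>
      obtain ⟨y, h, ⟨e, rfl⟩, rfl⟩ := z
      exact ⟨e, rfl⟩
  · intro w
    obtain ⟨w, rfl⟩ := QuotientGroup.mk_surjective w
    obtain ⟨e, rfl⟩ := hd w
    exact ⟨e, rfl⟩
  · intro e e'
    have heq : Equivalence (fun y z : {y : X // Cfsg.IsConjUnder c.range x y} =>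
        Cfsg.IsConjUnder (d.ker.map c) y.1 z.1) :=
      (isConjUnder_equivalence (d.ker.map c)).comap Subtype.val
    show Quot.mk _ _ = Quot.mk _ _ ↔ (QuotientGroup.mk (d e) : Q ⧸ _) = QuotientGroup.mk (d e')
    rw [Quot.eq, heq.eqvGen_iff, QuotientGroup.eq]
    constructor
    · rintro ⟨_, ⟨s, hs, rfl⟩, h⟩
      refine ⟨e⁻¹ * s⁻¹ * e', ?_, ?_⟩
      · show c (e⁻¹ * s⁻¹ * e') ∈ Subgroup.centralizer {x}
        rw [Subgroup.mem_centralizer_singleton_iff]
        simp only at h
        have h2 : x = (c e)⁻¹ * (c s)⁻¹ * (c e' * x * (c e')⁻¹) * c s * c e := by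
          rw [h]
          group
        rw [map_mul, map_mul, map_inv, map_inv]
        conv_rhs => rw [h2]
        group
      · have hs' : d s = 1 := hs
        rw [map_mul, map_mul, map_inv, map_inv, hs', inv_one, mul_one]
    · rintro ⟨t, ht, h⟩
      have ht' : c t * x = x * c t := Subgroup.mem_centralizer_singleton_iff.1 ht
      refine ⟨c (e' * t⁻¹ * e⁻¹), ⟨e' * t⁻¹ * e⁻¹, ?_, rfl⟩, ?_⟩
      · show d (e' * t⁻¹ * e⁻¹) = 1
        rw [map_mul, map_mul, map_inv, map_inv, h]
        group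
      · simp only
        have h3 : (c t)⁻¹ * x * c t = x := by
          rw [mul_assoc, ← ht', ← mul_assoc, inv_mul_cancel, one_mul]
        rw [map_mul, map_mul, map_inv, map_inv]
        calc c e' * x * (c e')⁻¹ = c e' * ((c t)⁻¹ * x * c t) * (c e')⁻¹ := by rw [h3]
          _ = _ := by group

theorem splitClassCount_conj {X : Type*} [Group X] (H K : Subgroup X) (x u : X) (hu : u ∈ H) :
    Cfsg.splitClassCount H K (u⁻¹ * x * u) = Cfsg.splitClassCount H K x := by
  have h : Cfsg.IsConjUnder H (u⁻¹ * x * u) = Cfsg.IsConjUnder H x := by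
    funext y
    apply propext
    constructor
    · rintro ⟨h, hh, rfl⟩
      exact ⟨h * u⁻¹, H.mul_mem hh (H.inv_mem hu), by group⟩
    · rintro ⟨h, hh, rfl⟩
      exact ⟨h * u, H.mul_mem hh hu, by group⟩
  unfold Cfsg.splitClassCount
  rw [h]

/-- the centraliser in `D` of a `D`-conjugate of `s`, when that of `s` is the range of `Θ` -/
theorem centralizer_equiv {E X : Type*} [Group E] [Group X] (Θ : E →* X) (D : Subgroup X)
    (s u : X) (hu : u ∈ D) (hrange : Θ.range = D ⊓ Subgroup.centralizer {s}) :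
    Nonempty (↥(D ⊓ Subgroup.centralizer {u⁻¹ * s * u}) ≃* E ⧸ Θ.ker) := by
  let Θ' : E →* X := (MulAut.conj u⁻¹).toMonoidHom.comp Θ
  have hΘ' : ∀ e, Θ' e = u⁻¹ * Θ e * u := fun e => by
    show MulAut.conj u⁻¹ (Θ e) = _
    rw [MulAut.conj_apply, inv_inv]
  have hker : Θ'.ker = Θ.ker := by
    ext e
    rw [MonoidHom.mem_ker, MonoidHom.mem_ker]
    show MulAut.conj u⁻¹ (Θ e) = 1 ↔ _
    exact EmbeddingLike.map_eq_one_iff
  have hr : Θ'.range = D ⊓ Subgroup.centralizer {u⁻¹ * s * u} := by
    ext y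
    constructor
    · rintro ⟨e, rfl⟩
      have h1 : Θ e ∈ D ⊓ Subgroup.centralizer {s} := by rw [← hrange]; exact ⟨e, rfl⟩
      rw [hΘ']
      refine ⟨D.mul_mem (D.mul_mem (D.inv_mem hu) h1.1) hu, ?_⟩
      have h2 := Subgroup.mem_centralizer_singleton_iff.1 h1.2
      apply Subgroup.mem_centralizer_singleton_iff.2
      calc u⁻¹ * Θ e * u * (u⁻¹ * s * u) = u⁻¹ * (Θ e * s) * u := by group
        _ = u⁻¹ * (s * Θ e) * u := by rw [h2]
        _ = _ := by group
    · rintro ⟨h1, h2⟩
      have h3 : u * y * u⁻¹ ∈ D ⊓ Subgroup.centralizer {s} := by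
        refine ⟨D.mul_mem (D.mul_mem hu h1) (D.inv_mem hu), ?_⟩
        have h4 := Subgroup.mem_centralizer_singleton_iff.1 h2
        apply Subgroup.mem_centralizer_singleton_iff.2
        calc u * y * u⁻¹ * s = u * (y * (u⁻¹ * s * u)) * u⁻¹ := by group
          _ = u * ((u⁻¹ * s * u) * y) * u⁻¹ := by rw [h4]
          _ = _ := by group
      rw [← hrange] at h3
      obtain ⟨e, he⟩ := h3
      refine ⟨e, ?_⟩
      rw [hΘ', he]
      group
  exact ⟨((QuotientGroup.quotientMulEquivOfEq hker.symm).trans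
    ((QuotientGroup.quotientKerEquivRange Θ').trans (MulEquiv.subgroupCongr hr))).symm⟩

/-! ### cyclic groups -/

theorem eq_range_pow_of_card {C : Type*} [CommGroup C] [IsCyclic C] [Finite C] (A : Subgroup C)
    (a m : ℕ) (hA : Nat.card A = a) (hN : Nat.card C = a * m) :
    A = (powMonoidHom m : C →* C).range := by
  have hpos : 0 < a * m := by rw [← hN]; exact Nat.card_pos
  have ha : 0 < a := Nat.pos_of_mul_pos_right hpos
  have hm : 0 < m := Nat.pos_of_mul_pos_left hpos
  have hk : Nat.card (powMonoidHom a : C →* C).ker = a := by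
    rw [IsCyclic.card_powMonoidHom_ker, hN]
    exact Nat.gcd_eq_right (dvd_mul_right a m)
  have h1 : A = (powMonoidHom a : C →* C).ker := by
    apply Subgroup.eq_of_le_of_card_ge
    · intro y hy
      rw [MonoidHom.mem_ker, powMonoidHom_apply, ← hA]
      have := pow_card_eq_one' (G := A) (x := ⟨y, hy⟩)
      exact congrArg Subtype.val this
    · rw [hk, hA]
  have h2 : (powMonoidHom m : C →* C).range = (powMonoidHom a : C →* C).ker := by
    apply Subgroup.eq_of_le_of_card_ge
    · rintro _ ⟨y, rfl⟩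
      rw [MonoidHom.mem_ker, powMonoidHom_apply, powMonoidHom_apply, ← pow_mul, mul_comm, ← hN]
      exact pow_card_eq_one'
    · rw [hk, IsCyclic.card_powMonoidHom_range, hN, Nat.gcd_eq_right (dvd_mul_left m a),
        Nat.mul_div_cancel _ hm]
  rw [h1, h2]

theorem sup_range_pow {C : Type*} [CommGroup C] (n m : ℕ) :
    (powMonoidHom n : C →* C).range ⊔ (powMonoidHom m : C →* C).range =
      (powMonoidHom (n.gcd m) : C →* C).range := by
  apply le_antisymm
  · apply sup_le
    · rintro _ ⟨y, rfl⟩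
      obtain ⟨k, hk⟩ := Nat.gcd_dvd_left n m
      refine ⟨y ^ k, ?_⟩
      rw [powMonoidHom_apply, powMonoidHom_apply, ← pow_mul, mul_comm, ← hk]
    · rintro _ ⟨y, rfl⟩
      obtain ⟨k, hk⟩ := Nat.gcd_dvd_right n m
      refine ⟨y ^ k, ?_⟩
      rw [powMonoidHom_apply, powMonoidHom_apply, ← pow_mul, mul_comm, ← hk]
  · rintro _ ⟨y, rfl⟩
    rw [powMonoidHom_apply, ← zpow_natCast, Nat.gcd_eq_gcd_ab, zpow_add]
    apply Subgroup.mul_mem
    · apply Subgroup.mem_sup_left
      refine ⟨y ^ (n.gcdA m), ?_⟩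
      rw [powMonoidHom_apply, ← zpow_natCast, ← zpow_mul, mul_comm]
    · apply Subgroup.mem_sup_right
      refine ⟨y ^ (n.gcdB m), ?_⟩
      rw [powMonoidHom_apply, ← zpow_natCast, ← zpow_mul, mul_comm]

/-- the index of `Cⁿ · A` in a cyclic group `C`, for the subgroup `A` of index `m` -/
theorem index_sup_of_card {C : Type*} [CommGroup C] [IsCyclic C] [Finite C] (A : Subgroup C)
    (a m n : ℕ) (hA : Nat.card A = a) (hN : Nat.card C = a * m) :
    ((powMonoidHom n : C →* C).range ⊔ A).index = n.gcd m := by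
  rw [eq_range_pow_of_card A a m hA hN, sup_range_pow, IsCyclic.index_powMonoidHom_range, hN]
  exact Nat.gcd_eq_right ((Nat.gcd_dvd_right n m).trans (dvd_mul_left m a))

end Cfsg.Agent.Lib.Helper18.AutPSL
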