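import Mathlib
import Cfsg.Agent.Lib.Helper18.AutPSL.FieldConj
import Cfsg.Agent.Lib.Helper18.AutPSL.Split

set_option autoImplicit false

/-!
Centralisers of field automorphisms of `PSL_n(q)` in `Inndiag`.
-/

namespace Cfsg.Agent.Lib.Helper18.AutPSL

open Matrix MatrixGroups

section General

variable {ι : Type*} [Fintype ι] [DecidableEq ι] {F : Type*} [Field F]

theorem inn_eq : Cfsg.Inn (ProjectiveSpecialLinearGroup ι F) =
    (GeneralLinearGroup.det : GL ι F →* Fˣ).ker.map cG := by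
  ext β
  constructor
  · rintro ⟨x, rfl⟩
    obtain ⟨x, rfl⟩ := pm_surjective x
    refine ⟨SpecialLinearGroup.toGL x, ?_, cG_toGL x⟩
    show GeneralLinearGroup.det (SpecialLinearGroup.toGL x) = 1
    apply Units.ext
    rw [GeneralLinearGroup.val_det_apply]
    exact x.2
  · rintro ⟨g, hg, rfl⟩
    have hg' : GeneralLinearGroup.det g = 1 := hg
    have hdet : g.1.det = 1 := by
      have := congrArg Units.val hg'
      rwa [GeneralLinearGroup.val_det_apply] at this
    let x : SpecialLinearGroup ι F := ⟨g.1, hdet⟩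
    have e : g = SpecialLinearGroup.toGL x := by
      apply Units.ext
      rfl
    rw [e, cG_toGL]
    exact ⟨_, rfl⟩

/-- `diag(a, 1, …, 1)` -/
noncomputable def d1 (i₀ : ι) (a : F) (ha : a ≠ 0) : GL ι F :=
  dg (Function.update 1 i₀ a) (by
    intro i
    by_cases hi : i = i₀
    · subst hi; simpa using ha
    · simp [Function.update_of_ne hi])

theorem d1_val (i₀ : ι) (a : F) (ha : a ≠ 0) :
    (d1 i₀ a ha).1 = Matrix.diagonal (Function.update 1 i₀ a) := rfl

theorem det_d1 (i₀ : ι) (a : F) (ha : a ≠ 0) :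
    GeneralLinearGroup.det (d1 i₀ a ha) = Units.mk0 a ha := by
  apply Units.ext
  rw [GeneralLinearGroup.val_det_apply, d1_val, det_diagonal,
    Finset.prod_update_of_mem (Finset.mem_univ i₀)]
  simp

theorem mp_d1 (σ : F ≃+* F) (i₀ : ι) (a : F) (ha : a ≠ 0) :
    mp σ (d1 i₀ a ha).1 = Matrix.diagonal (Function.update 1 i₀ (σ a)) := by
  rw [d1_val, mp_eq_map, Matrix.diagonal_map (map_zero σ)]
  congr 1
  funext i
  by_cases hi : i = i₀
  · subst hi; simp
  · simp [Function.update_of_ne hi]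

theorem det_mp (σ : F ≃+* F) (M : Matrix ι ι F) : (mp σ M).det = σ M.det := by
  rw [mp_eq_map]
  exact (RingEquiv.map_det σ M).symm

theorem mem_comap_cent {s : MulAut (ProjectiveSpecialLinearGroup ι F)} {g : GL ι F} :
    g ∈ (Subgroup.centralizer {s}).comap (cG : GL ι F →* _) ↔ cG g * s = s * cG g := by
  rw [Subgroup.mem_comap, Subgroup.mem_centralizer_singleton_iff]

theorem comm_fl_of_fixed (σ : F ≃+* F) (g : GL ι F) (h : mp σ g.1 = g.1) :
    cG g * fl σ = fl σ * cG g := by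
  have : gm σ g = g := Units.ext h
  rw [fl_mul_cG, this]

theorem mp_pow_of_smul (σ : F ≃+* F) (M : Matrix ι ι F) (lam : F) (h : mp σ M = lam • M)
    (k : ℕ) : mp (σ ^ k) M = nrmS σ lam k • M := by
  induction k with
  | zero => rw [pow_zero, mp_one, nrmS_zero, one_smul]
  | succ k ih => rw [mp_pow_succ, ih, mp_smul, h, smul_smul, nrmS_succ, mul_comm]

end General

variable {F : Type*} [Field F] {n : ℕ}

theorem exists_fixed_of_comm (hn : 2 ≤ n) (g : GL (Fin n) F) (σ : F ≃+* F) (r : ℕ)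
    (hr0 : 0 < r) (hr : orderOf σ = r) (h : cG g * fl σ = fl σ * cG g) :
    ∃ c : F, c ≠ 0 ∧ mp σ (c • g.1) = c • g.1 := by
  have hσ : σ ^ r = 1 := by rw [← hr]; exact pow_orderOf_eq_one σ
  rw [fl_mul_cG] at h
  have h1 : cG (g⁻¹ * gm σ g) = 1 := by
    rw [map_mul, map_inv, ← mul_right_cancel h, inv_mul_cancel]
  obtain ⟨lam, h0, hl⟩ := exists_sc_of_cG_eq_one hn h1
  have h2 : mp σ g.1 = lam • g.1 := by
    have h3 : gm σ g = g * sc lam h0 := by rw [← hl, mul_inv_cancel_left]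
    have h4 := congrArg Units.val h3
    rw [gm_val] at h4
    rw [h4]
    show g.1 * (sc lam h0 : GL (Fin n) F).1 = _
    rw [sc_val, Matrix.mul_smul, Matrix.mul_one]
  have h5 := mp_pow_of_smul σ g.1 lam h2 r
  rw [hσ, mp_one] at h5
  have h6 : nrmS σ lam r = 1 :=
    (eq_of_smul_eq_smul_GL hn g (by rw [one_smul]; exact h5)).symm
  obtain ⟨c, hc0, hc⟩ := hilbert90_one σ lam r hr0 hr h6
  refine ⟨c, hc0, ?_⟩
  rw [mp_smul, h2, smul_smul, mul_comm, hc]

theorem map_det_cent_fl (hn : 2 ≤ n) (σ : F ≃+* F) (r : ℕ) (hr0 : 0 < r)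
    (hr : orderOf σ = r) :
    ((Subgroup.centralizer {fl σ}).comap (cG : GL (Fin n) F →* _)).map GeneralLinearGroup.det =
      (powMonoidHom n : Fˣ →* Fˣ).range ⊔ (quoU σ).ker := by
  apply le_antisymm
  · rintro _ ⟨g, hg, rfl⟩
    obtain ⟨c, hc0, hc⟩ := exists_fixed_of_comm hn g σ r hr0 hr (mem_comap_cent.1 hg)
    have hd : (c • g.1).det ≠ 0 := by
      rw [Matrix.det_smul]
      exact mul_ne_zero (pow_ne_zero _ hc0) (det_GL_ne_zero g)
    rw [Subgroup.mem_sup]
    refine ⟨(Units.mk0 c hc0)⁻¹ ^ n, ⟨_, rfl⟩, Units.mk0 _ hd, ?_, ?_⟩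
    · rw [mem_ker_quoU]
      show σ (c • g.1).det = (c • g.1).det
      rw [← det_mp, hc]
    · apply Units.ext
      rw [Units.val_mul, Units.val_pow_eq_pow_val, Units.val_inv_eq_inv_val, Units.val_mk0,
        Units.val_mk0, GeneralLinearGroup.val_det_apply, Matrix.det_smul, Fintype.card_fin,
        ← mul_assoc, ← mul_pow, inv_mul_cancel₀ hc0, one_pow, one_mul]
  · apply sup_le
    · rintro _ ⟨a, rfl⟩
      refine ⟨sc a a.ne_zero, mem_comap_cent.2 (by rw [cG_sc, one_mul, mul_one]), ?_⟩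
      apply Units.ext
      rw [GeneralLinearGroup.val_det_apply, sc_val, Matrix.det_smul, Matrix.det_one, mul_one,
        Fintype.card_fin]
      rfl
    · intro a ha
      rw [mem_ker_quoU] at ha
      refine ⟨d1 ⟨0, by omega⟩ a a.ne_zero, mem_comap_cent.2 (comm_fl_of_fixed σ _ ?_), ?_⟩
      · rw [mp_d1, ha, d1_val]
      · rw [det_d1]
        exact Units.ext rfl

/-! ### the subfield subgroup -/

variable {F₀ : Type*} [Field F₀]

/-- `GL_n(F₀) → Aut(PSL_n(F))` -/
noncomputable def Th (j : F₀ →+* F) :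
    GL (Fin n) F₀ →* MulAut (ProjectiveSpecialLinearGroup (Fin n) F) :=
  cG.comp (GeneralLinearGroup.map j)

theorem Th_apply (j : F₀ →+* F) (g : GL (Fin n) F₀) :
    Th j g = cG (GeneralLinearGroup.map j g) := rfl

theorem ker_Th (hn : 2 ≤ n) (j : F₀ →+* F) :
    (Th j : GL (Fin n) F₀ →* _).ker = Subgroup.center (GL (Fin n) F₀) := by
  ext g
  have h1 : g ∈ (Th j : GL (Fin n) F₀ →* _).ker ↔
      GeneralLinearGroup.map j g ∈ (cG : GL (Fin n) F →* _).ker := Iff.rfl
  rw [h1, ker_cG_fin hn, GeneralLinearGroup.mem_center_iff_val_mem_range_scalar,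
    GeneralLinearGroup.mem_center_iff_val_mem_range_scalar]
  have hv : (GeneralLinearGroup.map j g).1 = g.1.map j := rfl
  rw [hv]
  constructor
  · rintro ⟨a, ha⟩
    refine ⟨g.1 ⟨0, by omega⟩ ⟨0, by omega⟩, ?_⟩
    ext i k
    have h2 := congrFun (congrFun ha i) k
    have h3 := congrFun (congrFun ha ⟨0, by omega⟩) ⟨0, by omega⟩
    rw [Matrix.map_apply] at h2 h3
    by_cases hik : i = k
    · subst hik
      simp only [Matrix.scalar_apply, Matrix.diagonal_apply_eq] at h2 h3 ⊢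
      exact j.injective (by rw [← h2, ← h3])
    · simp only [Matrix.scalar_apply, Matrix.diagonal_apply_ne _ hik] at h2 ⊢
      exact (j.injective (by rw [← h2, map_zero]))
  · rintro ⟨a, ha⟩
    refine ⟨j a, ?_⟩
    rw [← ha]
    ext i k
    by_cases hik : i = k
    · subst hik
      simp
    · simp [hik]

theorem range_Th (hn : 2 ≤ n) (j : F₀ →+* F) (σ : F ≃+* F)
    (hj : ∀ x, σ x = x ↔ x ∈ Set.range j) (r : ℕ) (hr0 : 0 < r) (hr : orderOf σ = r) :
    (Th j : GL (Fin n) F₀ →* _).range =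
      (cG : GL (Fin n) F →* _).range ⊓ Subgroup.centralizer {fl σ} := by
  ext y
  constructor
  · rintro ⟨g, rfl⟩
    refine ⟨⟨_, rfl⟩, ?_⟩
    apply Subgroup.mem_centralizer_singleton_iff.2
    apply comm_fl_of_fixed
    ext i k
    exact (hj _).2 ⟨g.1 i k, rfl⟩
  · rintro ⟨⟨g, rfl⟩, h2⟩
    obtain ⟨c, hc0, hc⟩ := exists_fixed_of_comm hn g σ r hr0 hr
      (Subgroup.mem_centralizer_singleton_iff.1 h2)
    have h3 : ∀ i k, ∃ y, j y = c * g.1 i k := fun i k =>
      (hj _).1 (congrFun (congrFun hc i) k)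
    choose M₀ hM₀ using h3
    have hM : (Matrix.of M₀).map j = c • g.1 := by
      ext i k
      exact hM₀ i k
    have hdet : (Matrix.of M₀).det ≠ 0 := by
      intro h0
      have h4 := RingHom.map_det j (Matrix.of M₀)
      rw [h0, map_zero] at h4
      have h5 : (c • g.1).det ≠ 0 := by
        rw [Matrix.det_smul]
        exact mul_ne_zero (pow_ne_zero _ hc0) (det_GL_ne_zero g)
      apply h5
      rw [← hM]
      exact h4.symm
    refine ⟨GeneralLinearGroup.mkOfDetNeZero (Matrix.of M₀) hdet, ?_⟩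
    have e : GeneralLinearGroup.map j (GeneralLinearGroup.mkOfDetNeZero (Matrix.of M₀) hdet) =
        sc c hc0 * g := by
      apply Units.ext
      show (Matrix.of M₀).map j = (sc c hc0 : GL (Fin n) F).1 * g.1
      rw [hM, sc_val, Matrix.smul_mul, Matrix.one_mul]
    rw [Th_apply, e, map_mul, cG_sc, one_mul]

theorem card_ker_quoU [Fintype F₀] (j : F₀ →+* F) (σ : F ≃+* F)
    (hj : ∀ x, σ x = x ↔ x ∈ Set.range j) :
    Nat.card (quoU σ).ker = Fintype.card F₀ - 1 := by
  classical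
  have hinj : Function.Injective (Units.map (j : F₀ →* F)) := by
    intro a b hab
    apply Units.ext
    exact j.injective (congrArg Units.val hab)
  have hr : (Units.map (j : F₀ →* F)).range = (quoU σ).ker := by
    ext b
    rw [mem_ker_quoU, hj]
    constructor
    · rintro ⟨a, rfl⟩
      exact ⟨a, rfl⟩
    · rintro ⟨a, ha⟩
      have ha0 : a ≠ 0 := by
        rintro rfl
        rw [map_zero] at ha
        exact b.ne_zero ha.symm
      exact ⟨Units.mk0 a ha0, Units.ext ha⟩
  rw [← hr, ← Nat.card_congr (MonoidHom.ofInjective hinj).toEquiv, Nat.card_eq_fintype_card,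
    Fintype.card_units]

theorem exists_subfield_emb [Fintype F] {p f r : ℕ} [Fact p.Prime]
    (hF : Fintype.card F = p ^ f) (σ : F ≃+* F) (hr : orderOf σ = r) (hr0 : 0 < r) :
    r ∣ f ∧ ∀ (F₀ : Type*) [Field F₀] [Fintype F₀], Fintype.card F₀ = p ^ (f / r) →
      ∃ j : F₀ →+* F, ∀ x, σ x = x ↔ x ∈ Set.range j := by
  classical
  have hfin : Finite (F ≃+* F) := Finite.of_injective (fun σ : F ≃+* F => (σ : F → F))
    DFunLike.coe_injective
  let G := Subgroup.zpowers σ
  have : Fintype G := Fintype.ofFinite _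
  have h := FixedPoints.finrank_eq_card G F
  have hG : Fintype.card G = r := by
    rw [← Nat.card_eq_fintype_card, Nat.card_zpowers, hr]
  rw [hG] at h
  have : Fintype (FixedPoints.subfield G F) := Fintype.ofFinite _
  have h1 := Module.card_eq_pow_finrank (K := FixedPoints.subfield G F) (V := F)
  rw [h, hF] at h1
  have hp : p.Prime := Fact.out
  obtain ⟨k, -, hk⟩ := (Nat.dvd_prime_pow hp).1 (Dvd.intro_left _ (by
    rw [h1, ← pow_succ, Nat.sub_add_cancel hr0] :
      Fintype.card (FixedPoints.subfield G F) ^ (r - 1) *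
        Fintype.card (FixedPoints.subfield G F) = p ^ f))
  rw [hk, ← pow_mul] at h1
  have h2 : f = k * r := Nat.pow_right_injective hp.two_le h1
  have h3 : f / r = k := by rw [h2, Nat.mul_div_cancel _ hr0]
  refine ⟨⟨k, by rw [h2, mul_comm]⟩, ?_⟩
  intro F₀ _ _ hF₀
  let e : F₀ ≃+* FixedPoints.subfield G F := FiniteField.ringEquivOfCardEq (by rw [hF₀, hk, h3])
  refine ⟨(FixedPoints.subfield G F).subtype.comp (e : F₀ →+* _), fun x => ?_⟩
  constructor
  · intro hx
    have hx' : x ∈ FixedPoints.subfield G F := by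
      rintro ⟨_, i, rfl⟩
      show (σ ^ i) x = x
      have hfix : σ ∈ MulAction.stabilizer (F ≃+* F) x := hx
      exact Subgroup.zpow_mem _ hfix i
    exact ⟨e.symm ⟨x, hx'⟩, by simp⟩
  · rintro ⟨y, rfl⟩
    exact (e y).2 ⟨σ, Subgroup.mem_zpowers σ⟩

end Cfsg.Agent.Lib.Helper18.AutPSL
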