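import Mathlib
import Cfsg.Agent.Lib.Helper18.AutPSL.FieldCent

set_option autoImplicit false

/-!
Centralisers of involutory graph-field automorphisms of `PSL_n(q)` in `Inndiag`.
-/

namespace Cfsg.Agent.Lib.Helper18.AutPSL

open Matrix MatrixGroups Cfsg.Agent.Lib.Helper17

variable {F : Type*} [Field F] {n : ℕ}

theorem invol_data [Fintype F] {p f : ℕ} [Fact p.Prime] (hF : Fintype.card F = p ^ f)
    (σ : F ≃+* F) (hσ1 : σ ≠ 1) (hσ2 : σ * σ = 1) :
    Even f ∧ Fintype.card F = (p ^ (f / 2)) ^ 2 ∧ ∀ x, σ x = x ^ (p ^ (f / 2)) := by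
  have hs : ∀ x, σ (σ x) = x := fun x => congrArg (fun τ : F ≃+* F => τ x) hσ2
  obtain ⟨q, hq, hσq⟩ := exists_card_eq_sq_of_involution (σ : F →+* F)
    (by
      intro h0
      apply hσ1
      ext x
      exact congrArg (fun τ : F →+* F => τ x) h0) hs
  rw [Nat.card_eq_fintype_card, hF] at hq
  have hp : p.Prime := Fact.out
  obtain ⟨k, -, hk⟩ := (Nat.dvd_prime_pow hp).1 (Dvd.intro_left q (by rw [hq, pow_two]))
  rw [hk, ← pow_mul] at hq
  have h2 : f = k * 2 := Nat.pow_right_injective hp.two_le hq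
  have h3 : f / 2 = k := by omega
  refine ⟨⟨k, by omega⟩, ?_, ?_⟩
  · rw [hF, h3, ← pow_mul, ← h2]
  · intro x
    rw [h3, ← hk]
    exact hσq x

theorem comm_gf_of_unitary {ι : Type*} [Fintype ι] [DecidableEq ι] (σ : F ≃+* F)
    (hs : ∀ x, σ (σ x) = x) (g : GL ι F)
    (h : g.1 * st σ g.1 = 1) : cG g * (fl σ * gr) = (fl σ * gr) * cG g := by
  have h1 : gm σ (gT g) = g := by
    apply Units.ext
    rw [gm_gT_val]
    have h2 : g⁻¹.1 = st σ g.1 := by
      calc g⁻¹.1 = g⁻¹.1 * (g.1 * st σ g.1) := by rw [h, Matrix.mul_one]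
        _ = _ := by rw [← Matrix.mul_assoc, Units.inv_mul, Matrix.one_mul]
    rw [h2, st_st σ hs]
  rw [gf_mul_cG, h1]

theorem exists_unitary_of_comm [Finite F] (hn : 2 ≤ n) (g : GL (Fin n) F) (σ : F ≃+* F)
    (hσ1 : σ ≠ 1) (hσ2 : σ * σ = 1) (h : cG g * (fl σ * gr) = (fl σ * gr) * cG g) :
    ∃ μ : F, μ ≠ 0 ∧ (μ • g.1) * st σ (μ • g.1) = 1 := by
  have hs : ∀ x, σ (σ x) = x := fun x => congrArg (fun τ : F ≃+* F => τ x) hσ2
  have hord : orderOf σ = 2 := orderOf_eq_prime (by rw [pow_two]; exact hσ2) hσ1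
  rw [gf_mul_cG] at h
  have h1 : cG (g⁻¹ * gm σ (gT g)) = 1 := by
    rw [map_mul, map_inv, ← mul_right_cancel h, inv_mul_cancel]
  obtain ⟨lam, h0, hl⟩ := exists_sc_of_cG_eq_one hn h1
  have h2 : st σ g⁻¹.1 = lam • g.1 := by
    have h3 : gm σ (gT g) = g * sc lam h0 := by rw [← hl, mul_inv_cancel_left]
    have h4 := congrArg Units.val h3
    rw [gm_gT_val] at h4
    rw [h4]
    show g.1 * (sc lam h0 : GL (Fin n) F).1 = _
    rw [sc_val, Matrix.mul_smul, Matrix.mul_one]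
  have hX : g.1 * st σ g.1 = lam⁻¹ • 1 := by
    have h5 : st σ g⁻¹.1 * st σ g.1 = 1 := by rw [← st_mul, Units.mul_inv, st_one]
    rw [h2, Matrix.smul_mul] at h5
    rw [← h5, smul_smul, inv_mul_cancel₀ h0, one_smul]
  have hfix : σ lam = lam := by
    have h6 := congrArg (st σ) hX
    rw [st_mul, st_st σ hs, hX, st_smul, st_one] at h6
    have h7 := congrFun (congrFun h6 ⟨0, by omega⟩) ⟨0, by omega⟩
    simp only [Matrix.smul_apply, Matrix.one_apply_eq, smul_eq_mul, mul_one, map_inv₀] at h7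
    exact (inv_injective h7).symm
  obtain ⟨μ, hμ0, hμ⟩ := nrmS_surj σ 2 (by norm_num) hord lam h0 hfix
  refine ⟨μ, hμ0, ?_⟩
  have h8 : μ * σ μ = lam := by
    rw [← hμ]
    simp [nrmS_succ, nrmS_zero]
  rw [st_smul, Matrix.smul_mul, Matrix.mul_smul, smul_smul, hX, smul_smul, h8,
    mul_inv_cancel₀ h0, one_smul]

section

variable [Fintype F] {q : ℕ}

theorem mem_GU_iff_st (hF : Fintype.card F = q ^ 2) (σ : F ≃+* F) (hσq : ∀ x, σ x = x ^ q)
    (g : GL (Fin n) F) : g ∈ Cfsg.GU n F q ↔ g.1 * st σ g.1 = 1 := by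
  constructor
  · intro hg
    have h1 := GU_transpose_mul_map hF hg
    have h2 := congrArg Matrix.transpose h1
    rw [Matrix.transpose_mul, Matrix.transpose_transpose, Matrix.transpose_one] at h2
    rw [mul_eq_one_comm]
    rw [← h2]
    congr 1
    ext i k
    show σ (g.1 k i) = (g.1 k i) ^ q
    exact hσq _
  · intro h
    rw [mul_eq_one_comm] at h
    intro u v
    show Cfsg.hermForm n F q (g.1 *ᵥ u) (g.1 *ᵥ v) = _
    rw [hermForm_mulVec_right hF σ hσq, Matrix.mulVec_mulVec, h, Matrix.one_mulVec]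

/-- `GU_n(q) → Aut(PSL_n(q²))` -/
noncomputable def Tu (n : ℕ) (F : Type*) [Field F] (q : ℕ) :
    ↥(Cfsg.GU n F q) →* MulAut (ProjectiveSpecialLinearGroup (Fin n) F) :=
  cG.comp (Cfsg.GU n F q).subtype

omit [Fintype F] in
theorem Tu_apply (g : ↥(Cfsg.GU n F q)) : Tu n F q g = cG g.1 := rfl

omit [Fintype F] in
theorem ker_Tu (hn : 2 ≤ n) :
    (Tu n F q).ker = (Cfsg.Geo.scalars (Fin n) F).subgroupOf (Cfsg.GU n F q) := by
  ext g
  rw [Subgroup.mem_subgroupOf, Cfsg.Geo.mem_scalars_iff, MonoidHom.mem_ker]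
  show cG g.1 = 1 ↔ _
  constructor
  · intro h
    obtain ⟨a, ha, e⟩ := exists_sc_of_cG_eq_one hn h
    refine ⟨Units.mk0 a ha, ?_⟩
    rw [e, Units.val_mk0]
    exact sc_val a ha
  · rintro ⟨c, hc⟩
    have e : g.1 = sc (c : F) c.ne_zero := by
      apply Units.ext
      rw [sc_val]
      exact hc
    rw [e, cG_sc]

theorem range_Tu (hn : 2 ≤ n) (hF : Fintype.card F = q ^ 2) (σ : F ≃+* F)
    (hσq : ∀ x, σ x = x ^ q) (hσ1 : σ ≠ 1) (hσ2 : σ * σ = 1) :
    (Tu n F q).range = (cG : GL (Fin n) F →* _).range ⊓ Subgroup.centralizer {fl σ * gr} := by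
  have hs : ∀ x, σ (σ x) = x := fun x => congrArg (fun τ : F ≃+* F => τ x) hσ2
  ext y
  constructor
  · rintro ⟨g, rfl⟩
    rw [Tu_apply]
    refine ⟨⟨_, rfl⟩, ?_⟩
    apply Subgroup.mem_centralizer_singleton_iff.2
    exact comm_gf_of_unitary σ hs g.1 ((mem_GU_iff_st hF σ hσq g.1).1 g.2)
  · rintro ⟨⟨g, rfl⟩, h2⟩
    obtain ⟨μ, hμ0, hμ⟩ := exists_unitary_of_comm hn g σ hσ1 hσ2
      (Subgroup.mem_centralizer_singleton_iff.1 h2)
    have hv : (sc μ hμ0 * g).1 = μ • g.1 := by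
      show (sc μ hμ0 : GL (Fin n) F).1 * g.1 = _
      rw [sc_val, Matrix.smul_mul, Matrix.one_mul]
    have hmem : sc μ hμ0 * g ∈ Cfsg.GU n F q :=
      (mem_GU_iff_st hF σ hσq _).2 (by rw [hv]; exact hμ)
    refine ⟨⟨sc μ hμ0 * g, hmem⟩, ?_⟩
    rw [Tu_apply, map_mul, cG_sc, one_mul]

theorem map_det_cent_gf (hn : 2 ≤ n) (σ : F ≃+* F)
    (hσq : ∀ x, σ x = x ^ q) (hσ1 : σ ≠ 1) (hσ2 : σ * σ = 1) :
    ((Subgroup.centralizer {fl σ * gr}).comap (cG : GL (Fin n) F →* _)).map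
        GeneralLinearGroup.det =
      (powMonoidHom n : Fˣ →* Fˣ).range ⊔ (powMonoidHom (q + 1) : Fˣ →* Fˣ).ker := by
  have hs : ∀ x, σ (σ x) = x := fun x => congrArg (fun τ : F ≃+* F => τ x) hσ2
  apply le_antisymm
  · rintro _ ⟨g, hg, rfl⟩
    obtain ⟨c, hc0, hc⟩ := exists_unitary_of_comm hn g σ hσ1 hσ2 (mem_comap_cent.1 hg)
    have hd : (c • g.1).det ≠ 0 := by
      rw [Matrix.det_smul]
      exact mul_ne_zero (pow_ne_zero _ hc0) (det_GL_ne_zero g)
    rw [Subgroup.mem_sup]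
    refine ⟨(Units.mk0 c hc0)⁻¹ ^ n, ⟨_, rfl⟩, Units.mk0 _ hd, ?_, ?_⟩
    · rw [MonoidHom.mem_ker, powMonoidHom_apply]
      apply Units.ext
      rw [Units.val_pow_eq_pow_val, Units.val_mk0, Units.val_one, pow_succ', ← hσq, ← det_st,
        ← Matrix.det_mul, hc, Matrix.det_one]
    · apply Units.ext
      rw [Units.val_mul, Units.val_pow_eq_pow_val, Units.val_inv_eq_inv_val, Units.val_mk0,
        Units.val_mk0, GeneralLinearGroup.val_det_apply, Matrix.det_smul, Fintype.card_fin,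
        ← mul_assoc, ← mul_pow, inv_mul_cancel₀ hc0, one_pow, one_mul]
  · apply sup_le
    · rintro _ ⟨a, rfl⟩
      refine ⟨sc a a.ne_zero, mem_comap_cent.2 (by rw [cG_sc, one_mul, mul_one]), ?_⟩
      apply Units.ext
      rw [GeneralLinearGroup.val_det_apply, sc_val, Matrix.det_smul, Matrix.det_one, mul_one,
        Fintype.card_fin]
      rfl
    · intro a ha
      rw [MonoidHom.mem_ker, powMonoidHom_apply] at ha
      have ha' : (a : F) * σ a = 1 := by
        rw [hσq, ← pow_succ']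
        have := congrArg Units.val ha
        rwa [Units.val_pow_eq_pow_val] at this
      refine ⟨d1 ⟨0, by omega⟩ a a.ne_zero,
        mem_comap_cent.2 (comm_gf_of_unitary σ hs _ ?_), ?_⟩
      · rw [st, mp_d1, Matrix.diagonal_transpose, d1_val, Matrix.diagonal_mul_diagonal,
          ← Matrix.diagonal_one]
        congr 1
        funext i
        by_cases hi : i = ⟨0, by omega⟩
        · subst hi
          simpa using ha'
        · simp [Function.update_of_ne hi]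
      · rw [det_d1]
        exact Units.ext rfl

end

end Cfsg.Agent.Lib.Helper18.AutPSL
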